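import Cfsg.Agent.S0117
import Cfsg.Agent.Modules.Thompson
import Cfsg.Agent.Transfer.Frobenius
import Cfsg.Agent.Solvable.ThompsonFPF
import Cfsg.Agent.Coprime.Action
import Cfsg.Agent.PGroup.Basic
import Cfsg.Agent.Char.Nilpotent

/-!
Groups with a nilpotent maximal subgroup of odd order or of class at most two are solvable.
-/

set_option autoImplicit false
set_option linter.style.haveILetI false
set_option linter.style.header false

namespace Cfsg.Agent.NilMax

open Subgroup
open scoped Pointwise commutatorElement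

universe u

variable {G : Type*} [Group G] [Finite G]

omit [Finite G] in
theorem mem_of_pow_two_pow {H : Subgroup G} {g : G} (hg : Nat.Coprime (orderOf g) 2) {a : ℕ}
    (h : g ^ (2 ^ a) ∈ H) : g ∈ H := by
  obtain ⟨m, hm⟩ := exists_pow_eq_self_of_coprime ((hg.pow_right a).symm)
  rw [← hm]
  exact pow_mem h m

theorem exists_pow_odd (g : G) : ∃ a : ℕ, Nat.Coprime (orderOf (g ^ (2 ^ a))) 2 := by
  obtain ⟨e, m, hm, he⟩ := Nat.exists_eq_pow_mul_and_not_dvd (orderOf_pos g).ne' 2 (by norm_num)
  refine ⟨e, ?_⟩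
  rw [orderOf_pow_of_dvd (by positivity) (he ▸ dvd_mul_right _ _), he,
    Nat.mul_div_cancel_left _ (by positivity)]
  exact (Nat.prime_two.coprime_iff_not_dvd.2 hm).symm

/-- An element of odd order in `R C(R)` centralizes the `2`-group `R`. -/
theorem mem_centralizer_of_mem_sup {R : Subgroup G} (hR : IsPGroup 2 R) {x : G}
    (hx : x ∈ R ⊔ centralizer (R : Set G)) (hxo : Nat.Coprime (orderOf x) 2) :
    x ∈ centralizer (R : Set G) := by
  have hx' : x ∈ (↑(R ⊔ centralizer (R : Set G)) : Set G) := hx
  rw [coe_mul_of_right_le_normalizer_left R (centralizer (R : Set G))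
    (centralizer_le_normalizer _)] at hx'
  obtain ⟨r, hr, c, hc, rfl⟩ := hx'
  obtain ⟨a, ha⟩ := hR ⟨r, hr⟩
  have ha' : r ^ 2 ^ a = 1 := by simpa using congrArg Subtype.val ha
  refine mem_of_pow_two_pow hxo (a := a) ?_
  have hrc : Commute r c := mem_centralizer_iff.1 hc r hr
  rw [hrc.mul_pow, ha', one_mul]
  exact pow_mem hc _

omit [Finite G] in
theorem mem_normalizer_sup {A B : Subgroup G} {g : G} (hA : g ∈ normalizer (A : Set G))
    (hB : g ∈ normalizer (B : Set G)) : g ∈ normalizer ((A ⊔ B : Subgroup G) : Set G) := by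
  rw [mem_normalizer_iff_map_conj_eq] at hA hB ⊢
  rw [Subgroup.map_sup, hA, hB]

/-- The inductive step of the control of `2`-locals. -/
theorem centralize_two (S : Sylow 2 G)
    (hcase : ∀ R : Subgroup G, R ≤ (S : Subgroup G) → R ≠ ⊥ →
      (∀ z ∈ (S : Subgroup G), (∀ y ∈ (S : Subgroup G), y * z = z * y) → z ∈ R) →
      ∀ g ∈ normalizer (R : Set G), Nat.Coprime (orderOf g) 2 → g ∈ centralizer (R : Set G))
    (R : Subgroup G) (hRp : IsPGroup 2 R) (hne : R ≠ ⊥) (g : G)
    (hg : g ∈ normalizer (R : Set G)) (hgo : Nat.Coprime (orderOf g) 2) :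
    g ∈ centralizer (R : Set G) := by
  revert g
  induction R using WellFoundedGT.induction with
  | ind R IH =>
    intro g hg hgo
    obtain ⟨P, hRP⟩ := hRp.exists_le_sylow
    obtain ⟨c, rfl⟩ := MulAction.exists_smul_eq G S P
    have hconj : ∀ x ∈ R, c⁻¹ * x * c ∈ (S : Subgroup G) := by
      intro x hx
      have h1 := hRP hx
      rw [Sylow.coe_subgroup_smul, Subgroup.mem_pointwise_smul_iff_inv_smul_mem] at h1
      simpa [MulAut.smul_def, mul_assoc] using h1
    set R0 : Subgroup G := R.comap (MulAut.conj c).toMonoidHom with hR0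
    have hm0 : ∀ x, x ∈ R0 ↔ c * x * c⁻¹ ∈ R := fun x => by simp [hR0]
    have hR0S : R0 ≤ (S : Subgroup G) := fun x hx => by
      simpa [mul_assoc] using hconj _ ((hm0 x).1 hx)
    have hR0ne : R0 ≠ ⊥ := fun h => hne (by
      rw [eq_bot_iff]
      intro x hx
      have h2 : c⁻¹ * x * c ∈ R0 := (hm0 _).2 (by simpa [mul_assoc] using hx)
      rw [h, mem_bot] at h2
      rw [mem_bot]
      have : x = c * (c⁻¹ * x * c) * c⁻¹ := by group
      rw [this, h2]; simp)
    by_cases hz : ∀ z ∈ (S : Subgroup G), (∀ y ∈ (S : Subgroup G), y * z = z * y) → z ∈ R0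
    · have hgn : c⁻¹ * g * c ∈ normalizer (R0 : Set G) := by
        rw [mem_normalizer_iff]
        intro x
        rw [hm0, hm0, mem_normalizer_iff.1 hg (c * x * c⁻¹)]
        simp [mul_assoc]
      have hord : orderOf (c⁻¹ * g * c) = orderOf g := by
        have := orderOf_injective (MulAut.conj c⁻¹).toMonoidHom (MulEquiv.injective _) g
        simpa using this
      have h3 := hcase R0 hR0S hR0ne hz _ hgn (by rw [hord]; exact hgo)
      rw [mem_centralizer_iff] at h3 ⊢
      intro x hx
      have h4 := h3 (c⁻¹ * x * c) ((hm0 _).2 (by simpa [mul_assoc] using hx))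
      calc x * g = c * ((c⁻¹ * x * c) * (c⁻¹ * g * c)) * c⁻¹ := by group
        _ = c * ((c⁻¹ * g * c) * (c⁻¹ * x * c)) * c⁻¹ := by rw [h4]
        _ = g * x := by group
    · push Not at hz
      obtain ⟨z0, hz0S, hz0c, hz0R⟩ := hz
      set z := c * z0 * c⁻¹ with hzdef
      have hzP : z ∈ ((c • S : Sylow 2 G) : Subgroup G) := by
        rw [Sylow.coe_subgroup_smul, Subgroup.mem_pointwise_smul_iff_inv_smul_mem]
        simpa [hzdef, MulAut.smul_def, mul_assoc] using hz0S
      have hzR : z ∉ R := fun h => hz0R ((hm0 z0).2 h)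
      have hzC : z ∈ centralizer (R : Set G) := by
        rw [mem_centralizer_iff]
        intro x hx
        have h1 := hz0c _ (hconj x hx)
        calc x * z = c * ((c⁻¹ * x * c) * z0) * c⁻¹ := by rw [hzdef]; group
          _ = c * (z0 * (c⁻¹ * x * c)) * c⁻¹ := by rw [h1]
          _ = z * x := by rw [hzdef]; group
      set L : Subgroup G := R ⊔ centralizer (R : Set G) with hL
      set H : Subgroup G := normalizer (R : Set G) with hH
      have hLH : L ≤ H := sup_le le_normalizer (centralizer_le_normalizer _)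
      have hHL : H ≤ normalizer (L : Set G) := by
        intro h hh
        refine mem_normalizer_sup hh ?_
        rw [mem_normalizer_iff]
        have key : ∀ k ∈ H, ∀ x ∈ centralizer (R : Set G),
            k * x * k⁻¹ ∈ centralizer (R : Set G) := by
          intro k hk x hx
          rw [mem_centralizer_iff] at hx ⊢
          intro r hr
          have hr' : k⁻¹ * r * k ∈ R := by
            simpa using (mem_normalizer_iff.1 (inv_mem hk) r).1 hr
          have h1 := hx _ hr'
          calc r * (k * x * k⁻¹) = k * ((k⁻¹ * r * k) * x) * k⁻¹ := by group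
            _ = k * (x * (k⁻¹ * r * k)) * k⁻¹ := by rw [h1]
            _ = k * x * k⁻¹ * r := by group
        intro x
        refine ⟨key h hh x, fun hx => ?_⟩
        simpa [mul_assoc] using key h⁻¹ (inv_mem hh) _ hx
      haveI : (L.subgroupOf H).Normal := normal_subgroupOf_of_le_normalizer hHL
      set Z : Subgroup G := R ⊔ zpowers z with hZ
      have hZL : Z ≤ L := sup_le le_sup_left ((zpowers_le.2 hzC).trans le_sup_right)
      have hZp : IsPGroup 2 Z := (c • S).2.to_le (sup_le hRP (zpowers_le.2 hzP))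
      obtain ⟨Q, hQ⟩ := ((hZp.comap_subtype (K := H)).comap_subtype
        (K := L.subgroupOf H)).exists_le_sylow
      set W : Subgroup G :=
        (((Q : Subgroup (L.subgroupOf H)).map (L.subgroupOf H).subtype).map H.subtype) with hW
      have hWp : IsPGroup 2 W := (Q.2.map _).map _
      have hZW : Z ≤ W := fun x hx =>
        ⟨⟨x, hLH (hZL hx)⟩, ⟨⟨⟨x, hLH (hZL hx)⟩, hZL hx⟩, hQ hx, rfl⟩, rfl⟩
      have hRW : R < W := lt_of_le_of_ne (le_sup_left.trans hZW) fun h =>
        hzR (h ▸ hZW (mem_sup_right (mem_zpowers z)))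
      have hWne : W ≠ ⊥ := ne_bot_of_gt hRW
      have htop := Sylow.normalizer_sup_eq_top Q
      obtain ⟨n, hn, l, hl, hnl⟩ := mem_sup_of_normal_right.1
        (htop ▸ mem_top (⟨g, hg⟩ : H) : (⟨g, hg⟩ : H) ∈ _ ⊔ L.subgroupOf H)
      have hnW : (n : G) ∈ normalizer (W : Set G) := by
        rw [hW]
        exact le_normalizer_map H.subtype ⟨n, hn, rfl⟩
      obtain ⟨a, ha⟩ := exists_pow_odd (n : G)
      have h1 : (n : G) ^ 2 ^ a ∈ centralizer (R : Set G) :=
        centralizer_le (fun x hx => hRW.le hx)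
          (IH W hRW hWp hWne _ (pow_mem hnW _) ha)
      have h2 : (⟨g, hg⟩ : H) ^ 2 ^ a ∈ L.subgroupOf H := by
        have hn2 : n ^ 2 ^ a ∈ L.subgroupOf H := by
          rw [mem_subgroupOf, Subgroup.coe_pow]
          exact mem_sup_right h1
        rw [← QuotientGroup.eq_one_iff] at hn2 hl ⊢
        rw [← hnl, QuotientGroup.mk_pow, QuotientGroup.mk_mul, hl, mul_one,
          ← QuotientGroup.mk_pow]
        exact hn2
      rw [mem_subgroupOf, Subgroup.coe_pow] at h2
      exact mem_centralizer_of_mem_sup hRp (mem_of_pow_two_pow hgo h2) hgo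

/-- The structural step: a core-free maximal subgroup. -/
theorem isSolvable_of_forall_hasNormalPComplement {M : Subgroup G} (hmax : IsCoatom M)
    [Group.IsNilpotent M]
    (hN : ∀ p : ℕ, p.Prime → p ∣ Nat.card M → Cfsg.HasNormalPComplement p G)
    (hall : ∀ p : ℕ, p.Prime → p ∣ Nat.card M → ¬ p ∣ M.index) :
    Group.IsSolvable G := by
  set K : Subgroup G := ⨅ p ∈ (Nat.card M).primeFactors, Cfsg.pResidual p G with hK
  haveI hKn : K.Normal := by
    refine ⟨fun x hx g => ?_⟩
    simp only [hK, mem_iInf] at hx ⊢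
    intro p hp
    exact (inferInstance : (Cfsg.pResidual p G).Normal).conj_mem _ (hx p hp) g
  have hcop : (Nat.card M).Coprime (Nat.card K) := by
    refine Nat.coprime_of_dvd fun r hr hrM hrK => ?_
    haveI : Fact r.Prime := ⟨hr⟩
    have hle : K ≤ Cfsg.pResidual r G :=
      iInf₂_le r (Nat.mem_primeFactors.2 ⟨hr, hrM, Nat.card_pos.ne'⟩)
    exact Transfer.hasNormalPComplement_iff.1 (hN r hr hrM)
      (hrK.trans (card_dvd_of_le hle))
  have hidx : M.index ≠ 1 := fun h => hmax.1 (index_eq_one.1 h)
  obtain ⟨q, hq, hqi⟩ := Nat.exists_prime_and_dvd hidx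
  haveI : Fact q.Prime := ⟨hq⟩
  have hqM : ¬ q ∣ Nat.card M := fun h => hall q hq h hqi
  obtain ⟨x, hx⟩ := exists_prime_orderOf_dvd_card' (G := G) q (hqi.trans M.index_dvd_card)
  have hxK : x ∈ K := by
    simp only [hK, mem_iInf]
    intro p hp
    refine Transfer.mem_pResidual_of_coprime ?_
    rw [hx, Nat.coprime_primes hq (Nat.prime_of_mem_primeFactors hp)]
    rintro rfl
    exact hqM (Nat.dvd_of_mem_primeFactors hp)
  have hqK : q ∣ Nat.card K := hx ▸ orderOf_dvd_natCard K hxK
  obtain ⟨P, hP⟩ := Coprime.exists_invariant_sylow q (A := M) (K := K)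
    (by rw [normalizer_eq_top_iff.2 hKn]; exact le_top) hcop (Or.inl inferInstance)
  set Pm := (P : Subgroup K).map K.subtype with hPm
  have hPne : Pm ≠ ⊥ := fun h => P.ne_bot_of_dvd_card hqK
    ((map_eq_bot_iff_of_injective _ K.subtype_injective).1 h)
  have hPK : Pm ≤ K := map_subtype_le _
  have hsup : M ⊔ Pm = ⊤ := by
    refine (hmax.le_iff.1 le_sup_left).resolve_right fun h => hPne ?_
    have h1 : Pm ≤ M := h ▸ le_sup_right
    exact le_bot_iff.1 ((disjoint_of_coprime_natCard hcop) h1 hPK)
  haveI : Pm.Normal := by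
    rw [← normalizer_eq_top_iff, eq_top_iff, ← hsup]
    exact sup_le hP le_normalizer
  haveI : Group.IsNilpotent Pm := (P.2.map K.subtype).isNilpotent
  have hsurj : Function.Surjective ((QuotientGroup.mk' Pm).comp M.subtype) := by
    rw [← MonoidHom.range_eq_top, MonoidHom.range_comp, range_subtype]
    have := congrArg (Subgroup.map (QuotientGroup.mk' Pm)) hsup
    rw [Subgroup.map_sup, QuotientGroup.map_mk'_self, sup_bot_eq,
      Subgroup.map_top_of_surjective _ (QuotientGroup.mk'_surjective Pm)] at this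
    exact this
  haveI := Group.isSolvable_of_surjective hsurj
  exact Group.isSolvable_of_ker_le_range Pm.subtype (QuotientGroup.mk' Pm)
    (by simp)

theorem isSolvable_aux : ∀ (n : ℕ) (G : Type u) [Group G] [Finite G], Nat.card G ≤ n →
    ∀ M : Subgroup G, IsCoatom M → Group.IsNilpotent M →
      (Group.nilpotencyClass M ≤ 2 ∨ Odd (Nat.card M)) → Group.IsSolvable G := by
  intro n
  induction n with
  | zero => intro G _ _ h; exact absurd h (Nat.card_pos.not_ge)
  | succ n IH =>
    intro G _ _ hcard M hmax hnil hC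
    haveI := hnil
    rcases eq_or_ne M ⊥ with rfl | hMne
    · haveI := hmax
      obtain ⟨g, hg⟩ := SetLike.exists_of_lt (lt_top_iff_ne_top.2 hmax.1)
      have hz : zpowers g = ⊤ := hmax.2 _ (bot_lt_iff_ne_bot.2 fun h => hg.2 (by
        rw [zpowers_eq_bot] at h; rw [h]; exact one_mem _))
      refine Group.isSolvable_of_comm fun a b => ?_
      obtain ⟨i, rfl⟩ : a ∈ zpowers g := hz ▸ mem_top a
      obtain ⟨j, rfl⟩ : b ∈ zpowers g := hz ▸ mem_top b
      exact (Commute.refl g).zpow_zpow i j
    by_cases hcore : ∃ N : Subgroup G, N.Normal ∧ N ≠ ⊥ ∧ N ≤ M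
    · obtain ⟨N, hNn, hNne, hNM⟩ := hcore
      haveI := hNn
      haveI : Group.IsSolvable N :=
        Group.isSolvable_of_isSolvable_injective (inclusion_injective hNM)
      set M' := M.map (QuotientGroup.mk' N) with hM'
      have hcm : M'.comap (QuotientGroup.mk' N) = M := by
        rw [hM', comap_map_eq, QuotientGroup.ker_mk', sup_eq_left.2 hNM]
      have hmax' : IsCoatom M' := by
        refine ⟨fun h => hmax.1 ?_, fun K hK => ?_⟩
        · rw [← hcm, h, comap_top]
        · have h1 : M < K.comap (QuotientGroup.mk' N) := by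
            rw [← hcm]
            exact (comap_lt_comap_of_surjective (QuotientGroup.mk'_surjective N)).2 hK
          have h2 := congrArg (Subgroup.map (QuotientGroup.mk' N)) (hmax.2 _ h1)
          rwa [map_comap_eq_self_of_surjective (QuotientGroup.mk'_surjective N),
            map_top_of_surjective _ (QuotientGroup.mk'_surjective N)] at h2
      have hs := MonoidHom.subgroupMap_surjective (QuotientGroup.mk' N) M
      haveI hnil' : Group.IsNilpotent M' := Group.nilpotent_of_surjective _ hs
      have hlt : Nat.card (G ⧸ N) ≤ n := by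
        have h1 := N.card_mul_index
        have h2 : 1 < Nat.card N := N.one_lt_card_iff_ne_bot.2 hNne
        have h3 : 0 < N.index := Nat.pos_of_ne_zero N.index_ne_zero_of_finite
        rw [← index_eq_card]
        nlinarith
      haveI := IH (G ⧸ N) hlt M' hmax' hnil' (hC.imp
        (fun h => (Group.nilpotencyClass_le_of_surjective _ hs).trans h)
        (fun h => Odd.of_dvd_nat h (card_map_dvd _ _)))
      exact Group.isSolvable_of_ker_le_range N.subtype (QuotientGroup.mk' N) (by simp)
    push Not at hcore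
    -- normalizers of nontrivial normal subgroups of `M`
    have hNeq : ∀ R : Subgroup G, R ≠ ⊥ → R ≤ M → M ≤ normalizer (R : Set G) →
        normalizer (R : Set G) = M := by
      intro R hR hRM hMR
      refine (hmax.le_iff.1 hMR).resolve_left fun h => ?_
      exact hcore R (normalizer_eq_top_iff.1 h) hR hRM
    -- Sylow subgroups of `M` are Sylow subgroups of `G`
    have hsyl : ∀ p : ℕ, p.Prime → p ∣ Nat.card M →
        ∃ P : Sylow p G, (P : Subgroup G) ≤ M ∧ (P : Subgroup G) ≠ ⊥ ∧
          M ≤ normalizer ((P : Subgroup G) : Set G) := by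
      intro p hp hpM
      haveI : Fact p.Prime := ⟨hp⟩
      obtain ⟨S⟩ : Nonempty (Sylow p M) := inferInstance
      haveI : (S : Subgroup M).Normal := inferInstance
      set Sm := (S : Subgroup M).map M.subtype with hSm
      have hSmp : IsPGroup p Sm := S.2.map _
      have hSne : Sm ≠ ⊥ := fun h => S.ne_bot_of_dvd_card hpM
        ((map_eq_bot_iff_of_injective _ M.subtype_injective).1 h)
      have hSM : Sm ≤ M := map_subtype_le _
      have hMS : M ≤ normalizer (Sm : Set G) := by
        intro m hm
        exact le_normalizer_map M.subtype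
          ⟨⟨m, hm⟩, by rw [normalizer_eq_top_iff.2 (inferInstance : (S : Subgroup M).Normal)]; exact mem_top _, rfl⟩
      obtain ⟨P, hP⟩ := hSmp.exists_le_sylow
      suffices h : (P : Subgroup G) = Sm by
        exact ⟨P, h ▸ hSM, h ▸ hSne, h ▸ hMS⟩
      by_contra hne
      have h1 := PGroup.lt_inf_normalizer P.2 (lt_of_le_of_ne hP (Ne.symm hne))
      rw [hNeq Sm hSne hSM hMS] at h1
      have h2 : IsPGroup p ((((P : Subgroup G) ⊓ M).subgroupOf M)) :=
        (P.2.to_le inf_le_left).comap_subtype
      have h3 : (S : Subgroup M) ≤ ((P : Subgroup G) ⊓ M).subgroupOf M := fun x hx =>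
        mem_subgroupOf.2 (h1.le ⟨x, hx, rfl⟩)
      have h4 := S.3 h2 h3
      refine h1.ne ?_
      rw [hSm, ← h4, subgroupOf_map_subtype, inf_eq_left.2 inf_le_right]
    have hall : ∀ p : ℕ, p.Prime → p ∣ Nat.card M → ¬ p ∣ M.index := by
      intro p hp hpM
      haveI : Fact p.Prime := ⟨hp⟩
      obtain ⟨P, hPM, -, -⟩ := hsyl p hp hpM
      exact fun h => P.not_dvd_index (h.trans (index_dvd_of_le hPM))
    refine isSolvable_of_forall_hasNormalPComplement hmax (fun p hp hpM => ?_) hall
    haveI : Fact p.Prime := ⟨hp⟩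
    obtain ⟨P, hPM, hPne, hMP⟩ := hsyl p hp hpM
    by_cases hp2 : p = 2
    · subst hp2
      have hcl : Group.nilpotencyClass M ≤ 2 := hC.resolve_right fun h =>
        (Nat.not_even_iff_odd.2 h) (even_iff_two_dvd.2 hpM)
      have htop : Subgroup.upperCentralSeries M 2 = ⊤ :=
        Subgroup.upperCentralSeries_eq_top_iff_nilpotencyClass_le.2 hcl
      refine Transfer.hasNormalPComplement_of_coprime_centralize
        (centralize_two P fun R hRP hRne hz g hg hgo => ?_)
      have hRM : R ≤ M := hRP.trans hPM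
      have hinv : ∀ m ∈ M, ∀ r ∈ R, m * r * m⁻¹ ∈ R := by
        intro m hm r hr
        have hc : ⁅(⟨m, hm⟩ : M), (⟨r, hRM hr⟩ : M)⁆ ∈ center M := by
          rw [← Subgroup.upperCentralSeries_one]
          exact Subgroup.mem_upperCentralSeries_succ_iff.1 (by rw [htop]; exact mem_top _) _
        have h1 : m * r * m⁻¹ ∈ (P : Subgroup G) :=
          (mem_normalizer_iff.1 (hMP hm) r).1 (hRP hr)
        have h2 : m * r * m⁻¹ * r⁻¹ ∈ R := by
          refine hz _ (mul_mem h1 (inv_mem (hRP hr))) fun y hy => ?_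
          have := congrArg Subtype.val (mem_center_iff.1 hc ⟨y, hPM hy⟩)
          simpa [commutatorElement_def, mul_assoc] using this
        simpa using mul_mem h2 hr
      have hMR : M ≤ normalizer (R : Set G) := by
        intro m hm
        rw [mem_normalizer_iff]
        refine fun r => ⟨hinv m hm r, fun h => ?_⟩
        simpa [mul_assoc] using hinv m⁻¹ (inv_mem hm) _ h
      rw [hNeq R hRne hRM hMR] at hg
      rw [mem_centralizer_iff]
      intro r hr
      obtain ⟨a, ha⟩ := (P.2.to_le hRP) ⟨r, hr⟩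
      have ha' : r ^ 2 ^ a = 1 := by simpa using congrArg Subtype.val ha
      have hco : Nat.Coprime (orderOf (⟨r, hRM hr⟩ : M)) (orderOf (⟨g, hg⟩ : M)) := by
        rw [← orderOf_coe, ← orderOf_coe]
        exact Nat.Coprime.coprime_dvd_left (orderOf_dvd_of_pow_eq_one ha')
          (hgo.pow_right a).symm
      exact congrArg Subtype.val (Char.nilpotent_commute_of_coprime hco).eq
    · refine (S0117.result hp2 P).2 ?_
      have hle : Cfsg.centerThompsonOf p (P : Subgroup G) ≤ M :=
        (Modules.centerThompsonOf_le p _).trans hPM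
      rw [hNeq _ (Modules.centerThompsonOf_ne_bot P.2 hPne) hle
        (hMP.trans (Modules.normalizer_le_normalizer_centerThompsonOf p _))]
      exact Solvable.hasNormalPComplement_of_isNilpotent M

end Cfsg.Agent.NilMax
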