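import Cfsg.Agent.NilMax.ParityLocal

/-!
A subgroup of index two in `P` which carries an automorphism of odd order in its normalizer.
-/

set_option autoImplicit false
set_option linter.style.haveILetI false
set_option linter.style.header false

namespace Cfsg.Agent.NilMax.Parity

open Subgroup
open scoped commutatorElement

variable {G : Type*} [Group G] [Finite G] {M : Subgroup G} {P : Sylow 2 G}

/-- A big subgroup of index two with a nontrivial odd automorphism from its normalizer. -/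
structure Bad (P : Sylow 2 G) (Q : Subgroup G) : Prop where
  big : Big P Q
  idx : ∀ a ∈ (P : Subgroup G), ∀ b ∈ (P : Subgroup G), a ∉ Q → b ∉ Q → a * b ∈ Q
  bad : ∃ g ∈ normalizer (Q : Set G), Nat.Coprime (orderOf g) 2 ∧ g ∉ centralizer (Q : Set G)

/-- The part moved by elements of odd order. -/
def E (Q : Subgroup G) : Subgroup G :=
  closure {y | ∃ g ∈ normalizer (Q : Set G), Nat.Coprime (orderOf g) 2 ∧ ∃ x ∈ Q, ⁅g, x⁆ = y}

theorem Bad.sq_mem {Q : Subgroup G} (hQ : Bad P Q) {p : G} (hp : p ∈ (P : Subgroup G)) :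
    p * p ∈ Q := by
  by_cases h : p ∈ Q
  · exact mul_mem h h
  · exact hQ.idx p hp p hp h h

variable {Q : Subgroup G}

theorem E_le_ZR (h : Hyp M P) (hQ : Bad P Q) : E Q ≤ ZR Q := by
  rw [E, closure_le]
  rintro y ⟨g, hg, -, x, hx, rfl⟩
  exact comm_mem_ZR h hQ.big hg hx

theorem E_le (h : Hyp M P) (hQ : Bad P Q) : E Q ≤ (P : Subgroup G) :=
  ((E_le_ZR h hQ).trans inf_le_left).trans hQ.big.1

theorem conj_mem_E {l e : G} (hl : l ∈ normalizer (Q : Set G)) (he : e ∈ E Q) :
    l * e * l⁻¹ ∈ E Q := by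
  unfold E at he ⊢
  induction he using closure_induction with
  | mem y hy =>
    obtain ⟨g, hg, hgo, x, hx, rfl⟩ := hy
    refine subset_closure ⟨l * g * l⁻¹, mul_mem (mul_mem hl hg) (inv_mem hl), ?_, l * x * l⁻¹,
      conj_mem hl hx, by simp [commutatorElement_def, mul_assoc]⟩
    have := orderOf_injective (MulAut.conj l).toMonoidHom (MulEquiv.injective _) g
    rw [show l * g * l⁻¹ = (MulAut.conj l).toMonoidHom g from rfl, this]
    exact hgo
  | one => simp
  | mul a b _ _ ha hb =>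
    rw [show l * (a * b) * l⁻¹ = l * a * l⁻¹ * (l * b * l⁻¹) by group]
    exact mul_mem ha hb
  | inv a _ ha =>
    rw [show l * a⁻¹ * l⁻¹ = (l * a * l⁻¹)⁻¹ by group]
    exact inv_mem ha

/-- Squares in the centre of `Q` are fixed by the normalizer. -/
theorem sq_fixed (h : Hyp M P) (hQ : Bad P Q) {l e : G} (hl : l ∈ normalizer (Q : Set G))
    (he : e ∈ ZR Q) : Commute l (e * e) := by
  have hle := le_centralizer_of_invariant h (big_le_normalizer h hQ.big)
    (S := {y | ∃ e ∈ ZR Q, e * e = y}) ?_ ?_ ?_ hl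
  · exact (mem_centralizer_iff.1 hle _ ⟨e, he, rfl⟩).symm
  · rintro l hl _ ⟨e, he, rfl⟩
    exact ⟨l * e * l⁻¹, conj_mem_ZR hl he, by group⟩
  · rintro _ ⟨e, he, rfl⟩
    exact hQ.big.1 (mul_mem he.1 he.1)
  · rintro _ ⟨e, he, rfl⟩ p hp
    by_cases hpQ : p ∈ Q
    · exact ((mem_ZR.1 he).2 p hpQ).mul_right ((mem_ZR.1 he).2 p hpQ)
    have heP : e ∈ (P : Subgroup G) := hQ.big.1 he.1
    set c := ⁅p, e⁆ with hc
    have hcQ : c ∈ Q := hQ.big.2 p hp e heP
    have hce : Commute c e := (mem_ZR.1 he).2 c hcQ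
    have hcp : Commute p c := h.cls p hp e heP p hp
    have hpe : p * e = c * e * p := by rw [hc, commutatorElement_def]; group
    have h2 : p * p * e = c * c * e * (p * p) := by
      calc p * p * e = p * (p * e) := mul_assoc _ _ _
        _ = p * c * e * p := by rw [hpe]; group
        _ = c * p * e * p := by rw [hcp.eq]
        _ = c * (p * e) * p := by group
        _ = c * (c * e * p) * p := by rw [hpe]
        _ = c * c * e * (p * p) := by group
    have hcc : c * c = 1 := by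
      have h1 : p * p * e = e * (p * p) := (mem_ZR.1 he).2 _ (hQ.sq_mem hp)
      rw [h2, mul_assoc] at h1
      exact mul_eq_right.1 h1
    show p * (e * e) = e * e * p
    calc p * (e * e) = (p * e) * e := by group
      _ = c * e * (p * e) := by conv_lhs => rw [hpe]
                                group
      _ = c * (e * c) * e * p := by rw [hpe]; group
      _ = c * c * (e * e) * p := by rw [← hce.eq]; group
      _ = e * e * p := by rw [hcc, one_mul]

/-- The accumulated commutator. -/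
def dd (g c : G) : ℕ → G
  | 0 => 1
  | i + 1 => g * dd g c i * g⁻¹ * c

omit [Finite G] in
theorem dd_spec (g x : G) (i : ℕ) : g ^ i * x * (g ^ i)⁻¹ = dd g ⁅g, x⁆ i * x := by
  induction i with
  | zero => simp [dd]
  | succ i ih =>
    rw [dd, pow_succ']
    calc g * g ^ i * x * (g * g ^ i)⁻¹ = g * (g ^ i * x * (g ^ i)⁻¹) * g⁻¹ := by group
      _ = _ := by rw [ih, commutatorElement_def]; group

theorem dd_mem {R : Subgroup G} {g c : G} (hg : g ∈ normalizer (R : Set G)) (hc : c ∈ ZR R) (i : ℕ) :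
    dd g c i ∈ ZR R := by
  induction i with
  | zero => exact one_mem _
  | succ i ih => exact mul_mem (conj_mem_ZR hg ih) hc

omit [Finite G] in
theorem dd_orderOf (g x : G) : dd g ⁅g, x⁆ (orderOf g) = 1 := by
  have h := dd_spec g x (orderOf g)
  rw [pow_orderOf_eq_one, one_mul, inv_one, mul_one] at h
  exact mul_eq_right.1 h.symm

omit [Finite G] in
theorem dd_fixed {g c : G} (hc : Commute g c) (i : ℕ) : dd g c i = c ^ i := by
  induction i with
  | zero => simp [dd]
  | succ i ih => rw [dd, ih, (hc.pow_right i).eq, mul_inv_cancel_right, pow_succ]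

theorem eq_one_of_pow_odd {c : G} (hc : c ∈ (P : Subgroup G)) {m : ℕ} (hm : Nat.Coprime m 2)
    (h : c ^ m = 1) : c = 1 := by
  obtain ⟨k, hk⟩ := IsPGroup.iff_orderOf.mp P.2 ⟨c, hc⟩
  rw [orderOf_mk] at hk
  refine orderOf_eq_one_iff.1 ?_
  rw [hk]
  exact Nat.Coprime.eq_one_of_dvd ((hm.pow_right k).symm) (hk ▸ orderOf_dvd_of_pow_eq_one h)

theorem gen_sq (h : Hyp M P) (hQ : Bad P Q) {g x : G} (hg : g ∈ normalizer (Q : Set G))
    (hgo : Nat.Coprime (orderOf g) 2) (hx : x ∈ Q) : ⁅g, x⁆ * ⁅g, x⁆ = 1 := by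
  set c := ⁅g, x⁆ with hc
  have hcZ : c ∈ ZR Q := comm_mem_ZR h hQ.big hg hx
  have key : ∀ i, dd g c i * dd g c i = (c * c) ^ i := by
    intro i
    induction i with
    | zero => simp [dd]
    | succ i ih =>
      have hd := conj_mem_ZR hg (dd_mem hg hcZ i)
      rw [dd, show g * dd g c i * g⁻¹ * c * (g * dd g c i * g⁻¹ * c) =
        g * dd g c i * g⁻¹ * (c * (g * dd g c i * g⁻¹)) * c by group,
        (ZR_commute hcZ hd).eq, show g * dd g c i * g⁻¹ * (g * dd g c i * g⁻¹ * c) * c =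
        g * (dd g c i * dd g c i) * g⁻¹ * (c * c) by group, ih,
        ((sq_fixed h hQ hg hcZ).pow_right i).eq, mul_inv_cancel_right, pow_succ]
  have h1 := key (orderOf g)
  rw [hc, dd_orderOf, one_mul] at h1
  exact eq_one_of_pow_odd (mul_mem (hQ.big.1 hcZ.1) (hQ.big.1 hcZ.1)) hgo h1.symm

theorem E_sq (h : Hyp M P) (hQ : Bad P Q) {e : G} (he : e ∈ E Q) : e * e = 1 := by
  unfold E at he
  induction he using closure_induction with
  | mem y hy =>
    obtain ⟨g, hg, hgo, x, hx, rfl⟩ := hy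
    exact gen_sq h hQ hg hgo hx
  | one => exact one_mul 1
  | mul a b ha' hb' ha hb =>
    have hc := ZR_commute (E_le_ZR h hQ ha') (E_le_ZR h hQ hb')
    rw [show a * b * (a * b) = a * (b * a) * b by group, ← hc.eq,
      show a * (a * b) * b = a * a * (b * b) by group, ha, hb, one_mul]
  | inv a _ ha => rw [← mul_inv_rev, ha, inv_one]

/-- Some element of `E Q` is not central in `P`. -/
theorem exists_noncentral (h : Hyp M P) (hQ : Bad P Q) :
    ∃ e ∈ E Q, ∃ p ∈ (P : Subgroup G), ¬ Commute p e := by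
  by_contra hcon
  push Not at hcon
  have hle := le_centralizer_of_invariant h (big_le_normalizer h hQ.big)
    (S := (E Q : Set G)) (fun l hl e he => conj_mem_E hl he) (E_le h hQ)
    (fun e he p hp => hcon e he p hp)
  obtain ⟨g, hg, hgo, hgC⟩ := hQ.bad
  refine hgC (mem_centralizer_iff.2 fun x hx => ?_)
  have hcE : ⁅g, x⁆ ∈ E Q := subset_closure ⟨g, hg, hgo, x, hx, rfl⟩
  have hgc : Commute g ⁅g, x⁆ := (mem_centralizer_iff.1 (hle hg) _ hcE).symm
  have h1 := dd_orderOf g x
  rw [dd_fixed hgc] at h1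
  exact (commutatorElement_eq_one_iff_commute.1
    (eq_one_of_pow_odd (E_le h hQ hcE) hgo h1)).eq.symm

theorem commute_iff_mem (h : Hyp M P) (hQ : Bad P Q) {e : G} (he : e ∈ E Q)
    (hne : ∃ p ∈ (P : Subgroup G), ¬ Commute p e) {x : G} (hx : x ∈ (P : Subgroup G)) :
    Commute x e ↔ x ∈ Q := by
  have heZ := (mem_ZR.1 (E_le_ZR h hQ he)).2
  refine ⟨fun hxe => ?_, fun hxQ => heZ x hxQ⟩
  by_contra hxQ
  obtain ⟨p, hp, hpe⟩ := hne
  by_cases hpQ : p ∈ Q
  · exact hpe (heZ p hpQ)
  · have h2 := (heZ _ (hQ.idx p hp x hx hpQ hxQ)).mul_left hxe.inv_left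
    rw [mul_inv_cancel_right] at h2
    exact hpe h2

section Trace

open scoped Classical in
/-- An element `⁅p, e⁆` fixed by the whole normalizer is trivial. -/
theorem fixed_eq_one (h : Hyp M P) (hQ : Bad P Q) {p e : G} (hp : p ∈ (P : Subgroup G))
    (he : e ∈ E Q) (hfix : ∀ l ∈ normalizer (Q : Set G), Commute l ⁅p, e⁆) : ⁅p, e⁆ = 1 := by
  by_cases hpQ : p ∈ Q
  · exact commutatorElement_eq_one_iff_commute.2 ((mem_ZR.1 (E_le_ZR h hQ he)).2 p hpQ)
  by_contra hz1
  set L := normalizer (Q : Set G) with hL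
  have hPL : (P : Subgroup G) ≤ L := h.le.trans (big_le_normalizer h hQ.big)
  letI : CommGroup (E Q) := { (inferInstance : Group (E Q)) with
    mul_comm := fun a b => Subtype.ext (ZR_commute (E_le_ZR h hQ a.2) (E_le_ZR h hQ b.2)).eq }
  haveI hEn : L ≤ normalizer ((E Q : Subgroup G) : Set G) := by
    intro l hl
    rw [mem_normalizer_iff]
    refine fun x => ⟨fun hx => conj_mem_E hl hx, fun hx => ?_⟩
    simpa [mul_assoc] using conj_mem_E (inv_mem hl) hx
  let ρ : L →* MulAut (E Q) := (Subgroup.normalizerMonoidHom (E Q)).comp (inclusion hEn)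
  have hρ : ∀ (l : L) (a : E Q), ((ρ l a : E Q) : G) = l * a * (l : G)⁻¹ := fun l a => rfl
  haveI : Finite (MulAut (E Q)) := Finite.of_injective MulEquiv.toEquiv fun _ _ hh => MulEquiv.toEquiv_injective hh
  letI := Fintype.ofFinite ρ.range
  set t : ρ.range := ⟨ρ ⟨p, hPL hp⟩, _, rfl⟩ with ht
  let T : Subgroup ρ.range := (((P : Subgroup G).subgroupOf L).map ρ.rangeRestrict)
  have hTodd : ¬ 2 ∣ T.index := by
    intro hd
    have h1 := hd.trans (index_map_dvd _ ρ.rangeRestrict_surjective)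
    exact P.not_dvd_index (h1.trans (by
      rw [← relIndex]
      exact relIndex_dvd_index_of_le hPL))
  have hT2 : ∀ a : ρ.range, a ∈ T ↔ a = 1 ∨ a = t := by
    intro a
    constructor
    · rintro ⟨l, hl, rfl⟩
      have hlP : (l : G) ∈ (P : Subgroup G) := hl
      by_cases hlQ : (l : G) ∈ Q
      · left
        refine Subtype.ext (MulEquiv.ext fun a => Subtype.ext ?_)
        show ((ρ l a : E Q) : G) = a
        rw [hρ, (((mem_ZR.1 (E_le_ZR h hQ a.2)).2 _ hlQ)).eq, mul_inv_cancel_right]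
      · right
        refine Subtype.ext (MulEquiv.ext fun a => Subtype.ext ?_)
        show ((ρ l a : E Q) : G) = ((ρ ⟨p, hPL hp⟩ a : E Q) : G)
        rw [hρ, hρ]
        have hq : (p : G)⁻¹ * l ∈ Q := by
          have hh := hQ.idx p⁻¹ (inv_mem hp) l hlP (fun hh => hpQ (inv_mem_iff.1 hh)) hlQ
          exact hh
        have hc := ((mem_ZR.1 (E_le_ZR h hQ a.2)).2 _ hq).eq
        have : (l : G) * a = p * (a : G) * (p⁻¹ * l) := by
          rw [mul_assoc p, ← hc]; group
        rw [this]; group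
    · rintro (rfl | rfl)
      · exact one_mem _
      · exact ⟨⟨p, hPL hp⟩, hp, rfl⟩
  have htne : t ≠ 1 := by
    intro h1
    refine hz1 (commutatorElement_eq_one_iff_commute.2 ?_)
    have := congrArg (fun (a : ρ.range) => (((a : MulAut (E Q)) ⟨e, he⟩ : E Q) : G)) h1
    change p * e * p⁻¹ = e at this
    exact mul_inv_eq_iff_eq_mul.1 this
  let Tr : E Q →* E Q := MonoidHom.mk' (fun a => ∏ k : ρ.range, (k : MulAut (E Q)) a)
    (fun a b => by simp only [map_mul]; exact Finset.prod_mul_distrib)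
  have hTrg : ∀ (k : ρ.range) (a : E Q), Tr ((k : MulAut (E Q)) a) = Tr a := fun k a =>
    Fintype.prod_equiv (Equiv.mulRight k) _ _ fun _ => rfl
  have hgen : ∀ (c : G) (hc : c ∈ E Q), Tr ⟨c, hc⟩ = 1 := by
    intro c hc
    have hc' := hc
    unfold E at hc
    induction hc using closure_induction with
    | mem y hy =>
      obtain ⟨g, hg, hgo, x, hx, rfl⟩ := hy
      have hmem : ∀ i, dd g ⁅g, x⁆ i ∈ E Q := by
        intro i
        induction i with
        | zero => exact one_mem _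
        | succ i ih => exact mul_mem (conj_mem_E hg ih) hc'
      have hi : ∀ i, Tr ⟨_, hmem i⟩ = (Tr ⟨⁅g, x⁆, hc'⟩) ^ i := by
        intro i
        induction i with
        | zero => rw [pow_zero]; exact map_one Tr
        | succ i ih =>
          have : (⟨_, hmem (i + 1)⟩ : E Q) = ((⟨ρ ⟨g, hg⟩, _, rfl⟩ : ρ.range) : MulAut (E Q))
              ⟨_, hmem i⟩ * ⟨⁅g, x⁆, hc'⟩ := rfl
          rw [this, map_mul, hTrg, ih, pow_succ]
      have h1 := hi (orderOf g)
      rw [show (⟨_, hmem (orderOf g)⟩ : E Q) = 1 from Subtype.ext (dd_orderOf g x), map_one] at h1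
      refine Subtype.ext (eq_one_of_pow_odd (E_le h hQ (Tr ⟨⁅g, x⁆, hc'⟩).2) hgo ?_)
      rw [← SubmonoidClass.coe_pow, ← h1, OneMemClass.coe_one]
    | one => exact map_one Tr
    | mul a b ha' hb' ha hb =>
      have : (⟨a * b, hc'⟩ : E Q) = ⟨a, ha'⟩ * ⟨b, hb'⟩ := rfl
      rw [this, map_mul, ha ha', hb hb', one_mul]
    | inv a ha' ha =>
      have : (⟨a⁻¹, hc'⟩ : E Q) = (⟨a, ha'⟩)⁻¹ := rfl
      rw [this, map_inv, ha ha', inv_one]
  -- the element `z = ⁅p, e⁆` is `t e * e`
  set z : E Q := ρ ⟨p, hPL hp⟩ ⟨e, he⟩ * ⟨e, he⟩ with hz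
  have hzG : (z : G) = ⁅p, e⁆ := by
    have : e⁻¹ = e := inv_eq_of_mul_eq_one_right (E_sq h hQ he)
    rw [commutatorElement_def, this]
    rfl
  have hzfix : ∀ k : ρ.range, (k : MulAut (E Q)) z = z := by
    rintro ⟨_, l, rfl⟩
    refine Subtype.ext ?_
    show ((ρ l z : E Q) : G) = z
    rw [hρ, hzG, (hfix l l.2).eq, mul_inv_cancel_right]
  have hfib : ∀ q : ρ.range ⧸ T,
      ∏ k ∈ Finset.univ.filter (fun k : ρ.range => (k : ρ.range ⧸ T) = q),
        (k : MulAut (E Q)) (⟨e, he⟩ : E Q) = z := by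
    intro q
    obtain ⟨k, rfl⟩ := QuotientGroup.mk_surjective q
    rw [show Finset.univ.filter (fun j : ρ.range => (j : ρ.range ⧸ T) = (k : ρ.range ⧸ T)) =
        {k, k * t} from ?_, Finset.prod_pair (fun hk => htne (mul_eq_left.1 hk.symm))]
    · show (k : MulAut (E Q)) ⟨e, he⟩ * (k : MulAut (E Q)) (ρ ⟨p, hPL hp⟩ ⟨e, he⟩) = z
      rw [← map_mul, mul_comm (⟨e, he⟩ : E Q)]
      exact hzfix k
    · ext j
      simp only [Finset.mem_filter, Finset.mem_univ, true_and, Finset.mem_insert, Finset.mem_singleton]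
      rw [eq_comm, QuotientGroup.eq, hT2]
      constructor
      · rintro (hh | hh)
        · exact Or.inl (inv_mul_eq_one.1 hh).symm
        · exact Or.inr (by rw [← hh]; group)
      · rintro (rfl | rfl)
        · exact Or.inl (inv_mul_cancel _)
        · exact Or.inr (by group)
  have hTe : Tr ⟨e, he⟩ = z ^ T.index := by
    show ∏ k : ρ.range, (k : MulAut (E Q)) (⟨e, he⟩ : E Q) = _
    rw [← Finset.prod_fiberwise Finset.univ (fun k : ρ.range => (k : ρ.range ⧸ T)),
      Finset.prod_congr rfl (fun q _ => hfib q), Finset.prod_const, index_eq_card,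
      Finset.card_univ, Nat.card_eq_fintype_card]
  rw [hgen e he] at hTe
  have h2 := congrArg (fun a : E Q => (a : G)) hTe
  simp only [OneMemClass.coe_one, SubmonoidClass.coe_pow, hzG] at h2
  exact hz1 (eq_one_of_pow_odd (hQ.big.1 (hQ.big.2 p hp e (E_le h hQ he)))
    (Nat.coprime_comm.1 (Nat.prime_two.coprime_iff_not_dvd.2 hTodd)) h2.symm)

end Trace

/-- Commutators of elements of `Q` and squares are fixed by elements of odd order. -/
theorem comm_fixed (h : Hyp M P) (hQ : Bad P Q) {g x y : G} (hg : g ∈ normalizer (Q : Set G))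
    (hx : x ∈ Q) (hy : y ∈ Q) : g * ⁅x, y⁆ * g⁻¹ = ⁅x, y⁆ := by
  rw [← MulAut.conj_apply g, map_commutatorElement]
  simp only [MulAut.conj_apply]
  have hcx := comm_mem_ZR h hQ.big hg hx
  have hcy := comm_mem_ZR h hQ.big hg hy
  rw [show g * x * g⁻¹ = ⁅g, x⁆ * x by rw [commutatorElement_def]; group,
    show g * y * g⁻¹ = ⁅g, y⁆ * y by rw [commutatorElement_def]; group]
  set c := ⁅g, x⁆
  set d := ⁅g, y⁆
  have h1 : Commute x d := (mem_ZR.1 hcy).2 x hx
  have h2 : Commute y c := (mem_ZR.1 hcx).2 y hy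
  have h3 : Commute c d := ZR_commute hcx hcy
  have h4 : Commute ⁅x, y⁆ c := (mem_ZR.1 hcx).2 _ (hQ.big.2 x (hQ.big.1 hx) y (hQ.big.1 hy))
  rw [commutatorElement_mul_left_eq_conj_mul, commutatorElement_mul_right_eq_mul_conj,
    commutatorElement_eq_one_iff_commute.2 h1, one_mul,
    commutatorElement_mul_right_eq_mul_conj, commutatorElement_eq_one_iff_commute.2 h3,
    commutatorElement_eq_one_iff_commute.2 h2.symm]
  have h5 : Commute ⁅x, y⁆ d := (mem_ZR.1 hcy).2 _ (hQ.big.2 x (hQ.big.1 hx) y (hQ.big.1 hy))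
  simp only [one_mul, mul_one, mul_inv_cancel]
  rw [(h5.symm).eq, mul_inv_cancel_right, h4.symm.eq, mul_inv_cancel_right]

theorem comm_sq_fixed (h : Hyp M P) (hQ : Bad P Q) {g x : G} (hg : g ∈ normalizer (Q : Set G))
    (hgo : Nat.Coprime (orderOf g) 2) (hx : x ∈ Q) : g * (x * x) * g⁻¹ = x * x := by
  set c := ⁅g, x⁆ with hc
  have hcZ := comm_mem_ZR h hQ.big hg hx
  have hgx : g * x * g⁻¹ = c * x := by rw [hc, commutatorElement_def]; group
  calc g * (x * x) * g⁻¹ = (g * x * g⁻¹) * (g * x * g⁻¹) := by group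
    _ = c * (x * c) * x := by rw [hgx]; group
    _ = c * (c * x) * x := by rw [((mem_ZR.1 hcZ).2 x hx).eq]
    _ = (c * c) * (x * x) := by group
    _ = x * x := by rw [gen_sq h hQ hg hgo hx, one_mul]

/-- The two shapes of contradictions. -/
theorem fixed_comm_false (h : Hyp M P) (hQ : Bad P Q) {p e z : G} (hp : p ∈ (P : Subgroup G))
    (he : e ∈ E Q) (hz : ⁅p, e⁆ = z) (hz1 : z ≠ 1)
    (hfix : ∀ g ∈ normalizer (Q : Set G), Nat.Coprime (orderOf g) 2 → g * z * g⁻¹ = z) : False := by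
  subst hz
  refine hz1 (fixed_eq_one h hQ hp he fun l hl => ?_)
  have := le_of_odd_and_sylow (P := P) (L := normalizer (Q : Set G))
    (C := centralizer ({⁅p, e⁆} : Set G)) (h.le.trans (big_le_normalizer h hQ.big))
    (fun q hq => by
      rw [mem_centralizer_singleton_iff]
      exact (h.cls p hp e (E_le h hQ he) q hq).eq)
    (fun g hg hgo => by
      rw [mem_centralizer_singleton_iff]
      exact mul_inv_eq_iff_eq_mul.1 (hfix g hg hgo)) hl
  rw [mem_centralizer_singleton_iff] at this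
  exact this

end Cfsg.Agent.NilMax.Parity
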