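import Cfsg.Agent.NilMax.Basic
import Mathlib.GroupTheory.Index
import Mathlib.Data.Fintype.BigOperators

/-!
Local analysis of subgroups `Q` of index two in a Sylow `2`-subgroup `P` of class at most two
whose normalizer is a maximal-type nilpotent subgroup.
-/

set_option autoImplicit false
set_option linter.style.haveILetI false
set_option linter.style.header false

namespace Cfsg.Agent.NilMax.Parity

open Subgroup
open scoped commutatorElement

variable {G : Type*} [Group G]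

/-- The standing hypotheses. -/
structure Hyp (M : Subgroup G) (P : Sylow 2 G) : Prop where
  le : (P : Subgroup G) ≤ M
  norm : normalizer ((P : Subgroup G) : Set G) = M
  cls : ∀ x ∈ (P : Subgroup G), ∀ y ∈ (P : Subgroup G), ∀ w ∈ (P : Subgroup G), Commute w ⁅x, y⁆
  split : ∀ m ∈ M, ∃ x ∈ (P : Subgroup G), ∃ c ∈ centralizer ((P : Subgroup G) : Set G), m = x * c
  odd_comm : ∀ m ∈ M, Nat.Coprime (orderOf m) 2 → m ∈ centralizer ((P : Subgroup G) : Set G)

variable {M : Subgroup G} {P : Sylow 2 G}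

/-- `R` contains the commutators of `P`. -/
def Big (P : Sylow 2 G) (R : Subgroup G) : Prop :=
  R ≤ (P : Subgroup G) ∧ ∀ x ∈ (P : Subgroup G), ∀ y ∈ (P : Subgroup G), ⁅x, y⁆ ∈ R

/-- The centre of `R`. -/
def ZR (R : Subgroup G) : Subgroup G := R ⊓ centralizer (R : Set G)

theorem mem_ZR {R : Subgroup G} {x : G} : x ∈ ZR R ↔ x ∈ R ∧ ∀ y ∈ R, Commute y x :=
  ⟨fun h => ⟨h.1, fun y hy => mem_centralizer_iff.1 h.2 y hy⟩,
    fun h => ⟨h.1, mem_centralizer_iff.2 fun y hy => h.2 y hy⟩⟩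

theorem ZR_commute {R : Subgroup G} {x y : G} (hx : x ∈ ZR R) (hy : y ∈ ZR R) : Commute x y :=
  (mem_ZR.1 hy).2 x (mem_ZR.1 hx).1

theorem conj_mem {R : Subgroup G} {g x : G} (hg : g ∈ normalizer (R : Set G)) (hx : x ∈ R) :
    g * x * g⁻¹ ∈ R :=
  (mem_normalizer_iff.1 hg x).1 hx

theorem conj_mem_ZR {R : Subgroup G} {g x : G} (hg : g ∈ normalizer (R : Set G)) (hx : x ∈ ZR R) :
    g * x * g⁻¹ ∈ ZR R := by
  refine mem_ZR.2 ⟨conj_mem hg hx.1, fun y hy => ?_⟩
  have hy' : g⁻¹ * y * g ∈ R := by simpa using conj_mem (inv_mem hg) hy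
  have h := ((mem_ZR.1 hx).2 _ hy').eq
  show y * (g * x * g⁻¹) = g * x * g⁻¹ * y
  calc y * (g * x * g⁻¹) = g * ((g⁻¹ * y * g) * x) * g⁻¹ := by group
    _ = g * (x * (g⁻¹ * y * g)) * g⁻¹ := by rw [h]
    _ = g * x * g⁻¹ * y := by group

theorem comm_mem {R : Subgroup G} {g x : G} (hg : g ∈ normalizer (R : Set G)) (hx : x ∈ R) :
    ⁅g, x⁆ ∈ R := by
  rw [commutatorElement_def]
  exact mul_mem (conj_mem hg hx) (inv_mem hx)

theorem big_le_normalizer (h : Hyp M P) {R : Subgroup G} (hR : Big P R) :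
    M ≤ normalizer (R : Set G) := by
  have hP : ∀ p ∈ (P : Subgroup G), ∀ x ∈ R, p * x * p⁻¹ ∈ R := by
    intro p hp x hx
    have := mul_mem (hR.2 p hp x (hR.1 hx)) hx
    rwa [commutatorElement_def, inv_mul_cancel_right] at this
  have key : ∀ m ∈ M, ∀ x ∈ R, m * x * m⁻¹ ∈ R := by
    intro m hm x hx
    obtain ⟨p, hp, c, hc, rfl⟩ := h.split m hm
    have hcx : c * x = x * c := (mem_centralizer_iff.1 hc x (hR.1 hx)).symm
    have : p * c * x * (p * c)⁻¹ = p * x * p⁻¹ := by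
      rw [mul_inv_rev, mul_assoc p c x, hcx]; group
    rw [this]
    exact hP p hp x hx
  intro m hm
  rw [mem_normalizer_iff]
  refine fun x => ⟨key m hm x, fun hx => ?_⟩
  simpa [mul_assoc] using key m⁻¹ (inv_mem hm) _ hx

section Frattini

variable [Finite G]

/-- Frattini argument relative to `P`. -/
theorem exists_frattini {N : Subgroup G} (hPN : (P : Subgroup G) ≤ normalizer (N : Set G)) {g : G}
    (hg : g ∈ normalizer (N : Set G)) :
    ∃ n ∈ N, n * g ∈ normalizer (((P : Subgroup G) ⊓ N : Subgroup G) : Set G) := by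
  set S := (P : Subgroup G) ⊓ N with hS
  obtain ⟨S0, hle0⟩ := ((P.2.to_le inf_le_left : IsPGroup 2 S).comap_subtype (K := N)).exists_le_sylow
  set W := (S0 : Subgroup N).map N.subtype with hW
  have hSW : S ≤ W := fun x hx => ⟨⟨x, hx.2⟩, hle0 hx, rfl⟩
  have hS0 : W = S := by
    set J := (P : Subgroup G) ⊔ N with hJ
    obtain ⟨P1, hP1⟩ := ((S0.2.map N.subtype).comap_subtype (K := J)).exists_le_sylow
    obtain ⟨y, hy⟩ := MulAction.exists_smul_eq J P1 (P.subtype (le_sup_left : (P : Subgroup G) ≤ J))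
    have hy' : ((y : J) : G) ∈ (↑((P : Subgroup G) ⊔ N) : Set G) := y.2
    rw [coe_mul_of_left_le_normalizer_right _ N hPN] at hy'
    obtain ⟨q, hq, m, hm, hqm⟩ := hy'
    refine (eq_of_le_of_card_ge hSW ?_).symm
    refine Nat.card_le_card_of_injective (fun w => ⟨m * w * m⁻¹, ?_, ?_⟩) ?_
    · obtain ⟨u, hu, huw⟩ := w.2
      have h2 : (⟨w, mem_sup_right (huw ▸ u.2)⟩ : J) ∈ (P1 : Subgroup J) :=
        hP1 (show (w : G) ∈ W from w.2)
      have h3 : y * ⟨w, mem_sup_right (huw ▸ u.2)⟩ * y⁻¹ ∈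
          (P.subtype (le_sup_left : (P : Subgroup G) ≤ J) : Subgroup J) := by
        rw [← hy, Sylow.coe_subgroup_smul]
        exact ⟨_, h2, rfl⟩
      have h4 : (y : G) * w * (y : G)⁻¹ ∈ (P : Subgroup G) := h3
      rw [← hqm] at h4
      have h5 := mul_mem (mul_mem (inv_mem hq) h4) hq
      rwa [show q⁻¹ * (q * m * (w : G) * (q * m)⁻¹) * q = m * w * m⁻¹ by group] at h5
    · obtain ⟨u, hu, huw⟩ := w.2
      have hwN : (w : G) ∈ N := huw ▸ u.2
      have hmN : m ∈ N := hm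
      exact Subgroup.mul_mem N (Subgroup.mul_mem N hmN hwN) (Subgroup.inv_mem N hmN)
    · intro a b hab
      exact Subtype.ext (mul_left_cancel (mul_right_cancel (congrArg Subtype.val hab)))
  set T := S.map (MulAut.conj g).toMonoidHom with hT
  have hTN : T ≤ N := by
    rintro _ ⟨x, hx, rfl⟩
    exact conj_mem hg hx.2
  have hTp : IsPGroup 2 T := (P.2.to_le inf_le_left).map _
  obtain ⟨S1, hS1⟩ := (hTp.comap_subtype (K := N)).exists_le_sylow
  obtain ⟨n, hn⟩ := MulAction.exists_smul_eq N S1 S0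
  refine ⟨n, n.2, ?_⟩
  rw [mem_normalizer_iff_map_conj_eq]
  refine eq_of_le_of_card_ge ?_ (le_of_eq ?_)
  · rintro _ ⟨x, hx, rfl⟩
    have hgx : g * x * g⁻¹ ∈ T := ⟨x, hx, rfl⟩
    have h2 : (⟨g * x * g⁻¹, hTN hgx⟩ : N) ∈ (S1 : Subgroup N) := hS1 hgx
    have h3 : n * ⟨g * x * g⁻¹, hTN hgx⟩ * n⁻¹ ∈ (S0 : Subgroup N) := by
      rw [← hn, Sylow.coe_subgroup_smul]
      exact ⟨_, h2, rfl⟩
    rw [← hS0]
    refine ⟨_, h3, ?_⟩
    simp [mul_assoc]
  · exact (card_map_of_injective (MulEquiv.injective _)).symm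

/-- A subgroup normalised by `L ⊇ M` and containing `M` contains `L`. -/
theorem le_of_normalized (h : Hyp M P) {L N : Subgroup G} (hN : L ≤ normalizer (N : Set G))
    (hML : M ≤ L) (hMN : M ≤ N) : L ≤ N := by
  intro g hg
  obtain ⟨n, hn, hng⟩ := exists_frattini (P := P) ((h.le.trans hML).trans hN) (hN hg)
  rw [inf_eq_left.2 (h.le.trans hMN), h.norm] at hng
  have := mul_mem (inv_mem hn) (hMN hng)
  rwa [inv_mul_cancel_left] at this

/-- A set invariant under `L` and centralised by `P` is centralised by `L`. -/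
theorem le_centralizer_of_invariant (h : Hyp M P) {L : Subgroup G} (hML : M ≤ L) {S : Set G}
    (hS : ∀ l ∈ L, ∀ s ∈ S, l * s * l⁻¹ ∈ S) (hSP : S ⊆ ((P : Subgroup G) : Set G))
    (hcent : ∀ s ∈ S, ∀ p ∈ (P : Subgroup G), Commute p s) : L ≤ centralizer S := by
  refine le_of_normalized h ?_ hML fun m hm => ?_
  · have key : ∀ l ∈ L, ∀ x ∈ centralizer S, l * x * l⁻¹ ∈ centralizer S := by
      intro l hl x hx
      rw [mem_centralizer_iff] at hx ⊢
      intro s hs
      have h1 := hx _ (hS l⁻¹ (inv_mem hl) s hs)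
      rw [inv_inv] at h1
      calc s * (l * x * l⁻¹) = l * ((l⁻¹ * s * l) * x) * l⁻¹ := by group
        _ = l * (x * (l⁻¹ * s * l)) * l⁻¹ := by rw [h1]
        _ = l * x * l⁻¹ * s := by group
    intro l hl
    rw [mem_normalizer_iff]
    refine fun x => ⟨key l hl x, fun hx => ?_⟩
    simpa [mul_assoc] using key l⁻¹ (inv_mem hl) _ hx
  · obtain ⟨p, hp, c, hc, rfl⟩ := h.split m hm
    refine mul_mem ?_ (centralizer_le hSP hc)
    rw [mem_centralizer_iff]
    exact fun s hs => (hcent s hs p hp).eq.symm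

/-- Elements of odd order and `P` generate a subgroup containing `P`. -/
theorem le_of_odd_and_sylow {L C : Subgroup G} (hPL : (P : Subgroup G) ≤ L)
    (hPC : (P : Subgroup G) ≤ C) (hodd : ∀ g ∈ L, Nat.Coprime (orderOf g) 2 → g ∈ C) : L ≤ C := by
  suffices hd : Nat.card L ∣ Nat.card (L ⊓ C : Subgroup G) by
    have := eq_of_le_of_card_ge (inf_le_left : L ⊓ C ≤ L) (Nat.le_of_dvd Nat.card_pos hd)
    exact this.ge.trans inf_le_right
  rw [Nat.dvd_iff_prime_pow_dvd_dvd]
  intro q k hq hqk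
  haveI : Fact q.Prime := ⟨hq⟩
  by_cases hq2 : q = 2
  · subst hq2
    refine dvd_trans ?_ (card_dvd_of_le (le_inf hPL hPC))
    rw [P.card_eq_multiplicity]
    exact pow_dvd_pow 2 ((hq.pow_dvd_iff_le_factorization Nat.card_pos.ne').1
      (hqk.trans L.card_subgroup_dvd_card))
  · let S : Sylow q L := default
    refine dvd_trans ?_ (card_dvd_of_le (show (S : Subgroup L).map L.subtype ≤ L ⊓ C from ?_))
    · rw [card_map_of_injective L.subtype_injective, S.card_eq_multiplicity]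
      exact pow_dvd_pow q ((hq.pow_dvd_iff_le_factorization Nat.card_pos.ne').1 hqk)
    · rintro _ ⟨x, hx, rfl⟩
      refine ⟨x.2, hodd _ x.2 ?_⟩
      obtain ⟨j, hj⟩ := IsPGroup.iff_orderOf.mp S.2 ⟨x, hx⟩
      rw [orderOf_mk] at hj
      rw [Subgroup.subtype_apply, orderOf_coe, hj]
      exact ((Nat.coprime_primes hq Nat.prime_two).2 hq2).pow_left j

/-- Conjugation is trivial modulo the centre of a big subgroup. -/
theorem comm_mem_ZR (h : Hyp M P) {R : Subgroup G} (hR : Big P R) {g x : G}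
    (hg : g ∈ normalizer (R : Set G)) (hx : x ∈ R) : ⁅g, x⁆ ∈ ZR R := by
  let N : Subgroup G :=
    { carrier := {g | g ∈ normalizer (R : Set G) ∧ ∀ y ∈ R, ⁅g, y⁆ ∈ ZR R}
      one_mem' := ⟨one_mem _, fun y _ => by rw [commutatorElement_one_left]; exact one_mem _⟩
      mul_mem' := by
        rintro a b ⟨ha, ha'⟩ ⟨hb, hb'⟩
        refine ⟨mul_mem ha hb, fun y hy => ?_⟩
        rw [commutatorElement_mul_left_eq_conj_mul]
        exact mul_mem (conj_mem_ZR ha (hb' y hy)) (ha' y hy)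
      inv_mem' := by
        rintro a ⟨ha, ha'⟩
        refine ⟨inv_mem ha, fun y hy => ?_⟩
        have : ⁅a⁻¹, y⁆ = a⁻¹ * ⁅a, y⁆⁻¹ * a⁻¹⁻¹ := by simp [commutatorElement_def, mul_assoc]
        rw [this]
        exact conj_mem_ZR (inv_mem ha) (inv_mem (ha' y hy)) }
  have hle : normalizer (R : Set G) ≤ N := by
    refine le_of_normalized h ?_ (big_le_normalizer h hR) fun m hm => ?_
    · have key : ∀ l ∈ normalizer (R : Set G), ∀ n ∈ N, l * n * l⁻¹ ∈ N := by
        rintro l hl n ⟨hn, hn'⟩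
        refine ⟨mul_mem (mul_mem hl hn) (inv_mem hl), fun y hy => ?_⟩
        have hy' : l⁻¹ * y * l ∈ R := by simpa using conj_mem (inv_mem hl) hy
        have : ⁅l * n * l⁻¹, y⁆ = l * ⁅n, l⁻¹ * y * l⁆ * l⁻¹ := by
          simp [commutatorElement_def, mul_assoc]
        rw [this]
        exact conj_mem_ZR hl (hn' _ hy')
      intro l hl
      rw [mem_normalizer_iff]
      refine fun n => ⟨key l hl n, fun hn => ?_⟩
      simpa [mul_assoc] using key l⁻¹ (inv_mem hl) _ hn
    · have hPN : ∀ p ∈ (P : Subgroup G), p ∈ N := fun p hp =>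
        ⟨big_le_normalizer h hR (h.le hp), fun y hy => mem_ZR.2
          ⟨hR.2 p hp y (hR.1 hy), fun w hw => h.cls p hp y (hR.1 hy) w (hR.1 hw)⟩⟩
      obtain ⟨p, hp, c, hc, hmc⟩ := h.split m hm
      have hpm : c ∈ M := by
        have : c = p⁻¹ * m := by rw [hmc]; group
        rw [this]; exact mul_mem (inv_mem (h.le hp)) hm
      rw [hmc]
      refine mul_mem (hPN p hp) ⟨big_le_normalizer h hR hpm, fun y hy => ?_⟩
      rw [commutatorElement_eq_one_iff_commute.2 (mem_centralizer_iff.1 hc y (hR.1 hy)).symm]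
      exact one_mem _
  exact (hle hg).2 x hx

end Frattini

end Cfsg.Agent.NilMax.Parity
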