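import Cfsg.Agent.NilMax.ParityReduce

/-!
No bad subgroups when a group of odd order acts and normalizers of invariant subgroups are small:
the graph `Q — R` of non-commuting parts `E Q`, `E R` has a parity obstruction.
-/

set_option autoImplicit false
set_option linter.style.haveILetI false
set_option linter.style.header false
set_option linter.unusedSectionVars false

namespace Cfsg.Agent.NilMax.Parity

open Subgroup
open scoped commutatorElement

variable {G : Type*} [Group G] [Finite G] {M : Subgroup G} {P : Sylow 2 G}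

/-- `e` is not central in `P`. -/
def NC (P : Sylow 2 G) (e : G) : Prop := ∃ p ∈ (P : Subgroup G), ¬ Commute p e

/-- Adjacency. -/
def Adj (P : Sylow 2 G) (Q R : Subgroup G) : Prop :=
  Bad P Q ∧ Bad P R ∧ ∃ e ∈ E Q, NC P e ∧ e ∉ R

theorem Adj.symm (h : Hyp M P) {Q R : Subgroup G} (ha : Adj P Q R) : Adj P R Q := by
  obtain ⟨hQ, hR, e, he, hne, heR⟩ := ha
  obtain ⟨f, hf, hnf⟩ := exists_noncentral h hR
  refine ⟨hR, hQ, f, hf, hnf, fun hfQ => heR ?_⟩
  exact (commute_iff_mem h hR hf hnf (E_le h hQ he)).1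
    ((commute_iff_mem h hQ he hne (E_le h hR hf)).2 hfQ).symm

theorem Adj.not_mem (h : Hyp M P) {Q R : Subgroup G} (ha : Adj P Q R) {e : G} (he : e ∈ E Q)
    (hne : NC P e) : e ∉ R := by
  intro heR
  obtain ⟨hR, hQ, f, hf, hnf, hfQ⟩ := ha.symm h
  exact hfQ ((commute_iff_mem h hQ he hne (E_le h hR hf)).1
    ((commute_iff_mem h hR hf hnf (E_le h hQ he)).2 heR).symm)

theorem not_adj_self (h : Hyp M P) {Q : Subgroup G} : ¬ Adj P Q Q := by
  rintro ⟨hQ, -, e, he, -, hne⟩
  exact hne ((E_le_ZR h hQ he).1)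

theorem Adj.quad (h : Hyp M P) {i j k l : Subgroup G} (hij : Adj P i j) (hik : Adj P i k)
    (hlj : Adj P l j) : Adj P l k := by
  have hi := hij.1
  have hj := hij.2.1
  have hk := hik.2.1
  have hl := hlj.1
  obtain ⟨e, he, hne⟩ := exists_noncentral h hi
  obtain ⟨f, hf, hnf⟩ := exists_noncentral h hj
  obtain ⟨u, hu, hnu⟩ := exists_noncentral h hk
  obtain ⟨d, hd, hnd⟩ := exists_noncentral h hl
  refine ⟨hl, hk, d, hd, hnd, fun hdk => ?_⟩
  have heP := E_le h hi he
  have hfP := E_le h hj hf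
  have huP := E_le h hk hu
  have hdP := E_le h hl hd
  have hfi : f ∉ i := (hij.symm h).not_mem h hf hnf
  have hui : u ∉ i := (hik.symm h).not_mem h hu hnu
  have hej : e ∉ j := hij.not_mem h he hne
  have hdj : d ∉ j := hlj.not_mem h hd hnd
  have hff : f * f = 1 := E_sq h hj hf
  have hdd : d * d = 1 := E_sq h hl hd
  set z := ⁅f, e⁆ with hz
  have hzc : ∀ w ∈ (P : Subgroup G), Commute w z := h.cls f hfP e heP
  have hfe : f * e = z * e * f := by rw [hz, commutatorElement_def]; group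
  have hz1 : z ≠ 1 := fun h1 =>
    hfi ((commute_iff_mem h hi he hne hfP).1 (commutatorElement_eq_one_iff_commute.1 h1))
  have hzz : z * z = 1 := by
    have h1 : e = z * z * e := by
      calc e = f * f * e := by rw [hff, one_mul]
        _ = f * (f * e) := mul_assoc _ _ _
        _ = (f * z) * e * f := by rw [hfe]; group
        _ = z * (f * e) * f := by rw [(hzc f hfP).eq]; group
        _ = z * z * e * (f * f) := by rw [hfe]; group
        _ = z * z * e := by rw [hff, mul_one]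
    exact mul_eq_right.1 h1.symm
  -- `⁅f, d⁆ = z`
  set w := ⁅f, d⁆ with hw
  have hwc : ∀ x ∈ (P : Subgroup G), Commute x w := h.cls f hfP d hdP
  have hfd : f * d = w * d * f := by rw [hw, commutatorElement_def]; group
  have hde : Commute f (d * e) :=
    ((mem_ZR.1 (E_le_ZR h hj hf)).2 _ (hj.idx d hdP e heP hdj hej)).symm
  have hwz : w = z := by
    have h1 : w * z * (d * e * f) = d * e * f := by
      calc w * z * (d * e * f) = w * (z * d) * e * f := by group
        _ = w * (d * z) * e * f := by rw [(hzc d hdP).eq]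
        _ = w * d * (z * e * f) := by group
        _ = (w * d * f) * e := by rw [← hfe]; group
        _ = f * d * e := by rw [← hfd]
        _ = d * e * f := by rw [mul_assoc f, hde.eq]
    rw [mul_eq_right] at h1
    calc w = w * (z * z) := by rw [hzz, mul_one]
      _ = z := by rw [← mul_assoc, h1, one_mul]
  by_cases hdi : d ∈ i
  · have hfu : f * u ∈ i := hi.idx f hfP u huP hfi hui
    have hud : Commute d u := (mem_ZR.1 (E_le_ZR h hk hu)).2 d hdk
    have hcomm : ⁅f * u, d⁆ = z := by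
      rw [← hwz, hw, commutatorElement_def, commutatorElement_def]
      calc f * u * d * (f * u)⁻¹ * d⁻¹ = f * (u * d) * u⁻¹ * f⁻¹ * d⁻¹ := by group
        _ = f * (d * u) * u⁻¹ * f⁻¹ * d⁻¹ := by rw [hud.eq]
        _ = f * d * f⁻¹ * d⁻¹ := by group
    exact fixed_comm_false h hi hfP he hz.symm hz1 fun g hg _ => by
      rw [← hcomm]; exact comm_fixed h hi hg hfu hdi
  · have hfd' : f * d ∈ i := hi.idx f hfP d hdP hfi hdi
    have hsq : f * d * (f * d) = z := by
      calc f * d * (f * d) = (f * d) * f * d := by group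
        _ = w * d * (f * f) * d := by rw [hfd]; group
        _ = z := by rw [hff, mul_one, mul_assoc, hdd, mul_one, hwz]
    exact fixed_comm_false h hi hfP he hz.symm hz1 fun g hg hgo => by
      rw [← hsq]; exact comm_sq_fixed h hi hg hgo hfd'

section Action

variable {A : Type*} [Group A] [Finite A] (φ : A →* MulAut G)

/-- The translate of a subgroup. -/
def tr (a : A) (Q : Subgroup G) : Subgroup G := Q.map (φ a).toMonoidHom

theorem mem_tr {a : A} {Q : Subgroup G} {x : G} : x ∈ tr φ a Q ↔ φ a⁻¹ x ∈ Q := by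
  constructor
  · rintro ⟨y, hy, rfl⟩
    show φ a⁻¹ (φ a y) ∈ Q
    rwa [← MulAut.mul_apply, ← map_mul, inv_mul_cancel, map_one, MulAut.one_apply]
  · refine fun hx => ⟨_, hx, ?_⟩
    show φ a (φ a⁻¹ x) = x
    rw [← MulAut.mul_apply, ← map_mul, mul_inv_cancel, map_one, MulAut.one_apply]

theorem apply_mem_tr {a : A} {Q : Subgroup G} {x : G} (hx : x ∈ Q) : φ a x ∈ tr φ a Q :=
  ⟨x, hx, rfl⟩

theorem tr_mul (a b : A) (Q : Subgroup G) : tr φ (a * b) Q = tr φ a (tr φ b Q) := by
  ext x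
  simp [mem_tr, mul_inv_rev, MulAut.mul_apply]

theorem tr_one (Q : Subgroup G) : tr φ 1 Q = Q := by
  ext x
  simp [mem_tr]

theorem apply_mem_normalizer {a : A} {Q : Subgroup G} {g : G} (hg : g ∈ normalizer (Q : Set G)) :
    φ a g ∈ normalizer (tr φ a Q : Set G) := by
  rw [mem_normalizer_iff]
  intro x
  obtain ⟨y, rfl⟩ := (φ a).surjective x
  have hiff : ∀ z, φ a z ∈ tr φ a Q ↔ z ∈ Q := fun z => by
    simp [mem_tr, ← MulAut.mul_apply, ← map_mul]
  rw [← map_inv, ← map_mul, ← map_mul, hiff, hiff]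
  exact mem_normalizer_iff.1 hg y

variable (hPinv : ∀ (a : A), ∀ x ∈ (P : Subgroup G), φ a x ∈ (P : Subgroup G))

include hPinv

theorem Bad.tr {Q : Subgroup G} (hQ : Bad P Q) (a : A) : Bad P (tr φ a Q) := by
  refine ⟨⟨?_, fun x hx y hy => ?_⟩, fun x hx y hy hxQ hyQ => ?_, ?_⟩
  · rintro _ ⟨y, hy, rfl⟩
    exact hPinv a y (hQ.big.1 hy)
  · rw [mem_tr, map_commutatorElement]
    exact hQ.big.2 _ (hPinv _ x hx) _ (hPinv _ y hy)
  · rw [mem_tr] at hxQ hyQ ⊢
    rw [map_mul]
    exact hQ.idx _ (hPinv _ x hx) _ (hPinv _ y hy) hxQ hyQ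
  · obtain ⟨g, hg, hgo, hgC⟩ := hQ.bad
    refine ⟨φ a g, apply_mem_normalizer φ hg, ?_, fun hc => hgC ?_⟩
    · rw [show orderOf (φ a g) = orderOf g from
        orderOf_injective (φ a).toMonoidHom (MulEquiv.injective _) g]
      exact hgo
    · rw [mem_centralizer_iff] at hc ⊢
      intro x hx
      refine (φ a).injective ?_
      rw [map_mul, map_mul]
      exact hc _ (apply_mem_tr φ hx)

omit hPinv in
theorem apply_mem_E {Q : Subgroup G} (a : A) {e : G} (he : e ∈ E Q) :
    φ a e ∈ E (Parity.tr φ a Q) := by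
  unfold E at he ⊢
  induction he using closure_induction with
  | mem y hy =>
    obtain ⟨g, hg, hgo, x, hx, rfl⟩ := hy
    refine subset_closure ⟨φ a g, apply_mem_normalizer φ hg, ?_, φ a x, apply_mem_tr φ hx,
      (map_commutatorElement _ _ _).symm⟩
    rw [show orderOf (φ a g) = orderOf g from
      orderOf_injective (φ a).toMonoidHom (MulEquiv.injective _) g]
    exact hgo
  | one => rw [map_one]; exact one_mem _
  | mul x y _ _ hx hy => rw [map_mul]; exact mul_mem hx hy
  | inv x _ hx => rw [map_inv]; exact inv_mem hx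

theorem Adj.tr {Q R : Subgroup G} (hQR : Adj P Q R) (a : A) :
    Adj P (Parity.tr φ a Q) (Parity.tr φ a R) := by
  obtain ⟨hQ, hR, e, he, ⟨p, hp, hpe⟩, heR⟩ := hQR
  refine ⟨hQ.tr φ hPinv a, hR.tr φ hPinv a, φ a e, apply_mem_E φ a he,
    ⟨φ a p, hPinv a p hp, fun hc => hpe ((φ a).injective ?_)⟩, fun hh => heR ?_⟩
  · rw [map_mul, map_mul]; exact hc.eq
  · simpa [mem_tr, ← MulAut.mul_apply, ← map_mul] using hh

/-- A bad subgroup is not adjacent to its translates. -/
theorem not_adj_tr (h : Hyp M P) (hA : Odd (Nat.card A)) {Q : Subgroup G} (a : A) :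
    ¬ Adj P Q (Parity.tr φ a Q) := by
  intro hadj
  have hstep : ∀ R, Adj P Q R → Adj P (Parity.tr φ (a * a) Q) R := by
    intro R hR
    refine Adj.quad h hadj hR ?_
    refine Adj.symm h ?_
    rw [tr_mul]
    exact hadj.tr φ hPinv a
  have hall : ∀ (n : ℕ) R, Adj P Q R → Adj P (Parity.tr φ ((a * a) ^ n) Q) R := by
    intro n
    induction n with
    | zero => intro R hR; rwa [pow_zero, tr_one]
    | succ n ih =>
      intro R hR
      have h1 := ((hstep R hR).tr φ hPinv (a * a)⁻¹)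
      rw [← tr_mul φ (a * a)⁻¹ (a * a) Q, inv_mul_cancel, tr_one] at h1
      have h2 := (ih _ h1).tr φ hPinv (a * a)
      rwa [← tr_mul, ← tr_mul φ (a * a) (a * a)⁻¹ R, mul_inv_cancel, tr_one, ← pow_succ'] at h2
  obtain ⟨m, hm⟩ := hA.of_dvd_nat (orderOf_dvd_natCard a)
  have ha : (a * a) ^ (m + 1) = a := by
    rw [← pow_two, ← pow_mul, show 2 * (m + 1) = orderOf a + 1 by omega, pow_succ,
      pow_orderOf_eq_one, one_mul]
  have := hall (m + 1) _ hadj
  rw [ha] at this
  exact not_adj_self h this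

/-- No bad subgroups exist. -/
theorem no_bad (h : Hyp M P) (hA : Odd (Nat.card A))
    (hNS : ∀ S : Subgroup G, S ≠ ⊥ → S ≤ (P : Subgroup G) → (∀ a : A, ∀ x ∈ S, φ a x ∈ S) →
      M ≤ normalizer (S : Set G) → normalizer (S : Set G) ≤ M)
    (Q : Subgroup G) : ¬ Bad P Q := by
  intro hQ
  set S : Subgroup G := ⨅ a : A, Parity.tr φ a Q
  have hSQ : S ≤ Q := (iInf_le _ (1 : A)).trans (tr_one φ Q).le
  have hES : E Q ≤ S := by
    refine le_iInf fun a e he => ?_
    by_contra hna
    by_cases hne : NC P e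
    · exact not_adj_tr φ hPinv h hA a ⟨hQ, hQ.tr φ hPinv a, e, he, hne, hna⟩
    · obtain ⟨f, hf, hnf⟩ := exists_noncentral h (hQ.tr φ hPinv a)
      refine hna ((commute_iff_mem h (hQ.tr φ hPinv a) hf hnf (E_le h hQ he)).1 ?_)
      by_contra hc
      exact hne ⟨f, E_le h (hQ.tr φ hPinv a) hf, fun hh => hc hh.symm⟩
  have hSP : S ≤ (P : Subgroup G) := hSQ.trans hQ.big.1
  have hSbig : Big P S :=
    ⟨hSP, fun x hx y hy => mem_iInf.2 fun a => (hQ.tr φ hPinv a).big.2 x hx y hy⟩
  have hSne : S ≠ ⊥ := by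
    obtain ⟨e, he, p, hp, hpe⟩ := exists_noncentral h hQ
    intro hbot
    have he1 : e = 1 := mem_bot.1 (hbot ▸ hES he)
    exact hpe (he1 ▸ Commute.one_right p)
  have hSinv : ∀ a : A, ∀ x ∈ S, φ a x ∈ S := by
    intro a x hx
    refine mem_iInf.2 fun b => ?_
    have := apply_mem_tr φ (a := a) (mem_iInf.1 hx (a⁻¹ * b))
    rwa [← tr_mul, mul_inv_cancel_left] at this
  have hNM := hNS S hSne hSP hSinv (big_le_normalizer h hSbig)
  obtain ⟨g, hg, hgo, hgC⟩ := hQ.bad
  have key : ∀ k ∈ normalizer (Q : Set G), Nat.Coprime (orderOf k) 2 → ∀ x ∈ S, k * x * k⁻¹ ∈ S := by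
    intro k hk hko x hx
    have h1 : ⁅k, x⁆ ∈ E Q := subset_closure ⟨k, hk, hko, x, hSQ hx, rfl⟩
    have := mul_mem (hES h1) hx
    rwa [commutatorElement_def, inv_mul_cancel_right] at this
  have hgS : g ∈ normalizer (S : Set G) := by
    rw [mem_normalizer_iff]
    refine fun x => ⟨key g hg hgo x, fun hx => ?_⟩
    simpa [mul_assoc] using key g⁻¹ (inv_mem hg) (by rwa [orderOf_inv]) _ hx
  exact hgC (centralizer_le hQ.big.1 (h.odd_comm g (hNM hgS) hgo))

end Action

end Cfsg.Agent.NilMax.Parity
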