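import Cfsg.Agent.NilMax.ParityBad
import Cfsg.Agent.Coprime.Generation

/-!
A big subgroup of `P` with an automorphism of odd order in its normalizer yields one of index two.
-/

set_option autoImplicit false
set_option linter.style.haveILetI false
set_option linter.style.header false
set_option linter.unusedSectionVars false

namespace Cfsg.Agent.NilMax.Parity

open Subgroup
open scoped commutatorElement

variable {G : Type*} [Group G] [Finite G] {M : Subgroup G} {P : Sylow 2 G}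

/-- Elements of odd order in the normalizer centralise. -/
def Good (R : Subgroup G) : Prop :=
  ∀ g ∈ normalizer (R : Set G), Nat.Coprime (orderOf g) 2 → g ∈ centralizer (R : Set G)

/-- The involutions of the centre of `R`. -/
def IV (R : Subgroup G) : Subgroup G where
  carrier := {e | e ∈ ZR R ∧ e * e = 1}
  one_mem' := ⟨one_mem _, one_mul 1⟩
  mul_mem' := by
    rintro a b ⟨ha, ha'⟩ ⟨hb, hb'⟩
    refine ⟨mul_mem ha hb, ?_⟩
    rw [show a * b * (a * b) = a * (b * a) * b by group, ← (ZR_commute ha hb).eq,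
      show a * (a * b) * b = a * a * (b * b) by group, ha', hb', one_mul]
  inv_mem' := by
    rintro a ⟨ha, ha'⟩
    exact ⟨inv_mem ha, by rw [← mul_inv_rev, ha', inv_one]⟩

theorem IV_le (R : Subgroup G) : IV R ≤ R := fun _ he => he.1.1

theorem IV_conj {R : Subgroup G} {l e : G} (hl : l ∈ normalizer (R : Set G)) (he : e ∈ IV R) :
    l * e * l⁻¹ ∈ IV R :=
  ⟨conj_mem_ZR hl he.1, by
    rw [show l * e * l⁻¹ * (l * e * l⁻¹) = l * (e * e) * l⁻¹ by group, he.2, mul_one, mul_inv_cancel]⟩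

theorem IV_normal (R : Subgroup G) :
    normalizer (R : Set G) ≤ normalizer ((IV R : Subgroup G) : Set G) := by
  intro l hl
  rw [mem_normalizer_iff]
  refine fun x => ⟨fun hx => IV_conj hl hx, fun hx => ?_⟩
  simpa [mul_assoc] using IV_conj (inv_mem hl) hx

/-- The elements of the normalizer centralising `IV R`. -/
def N1 (R : Subgroup G) : Subgroup G :=
  normalizer (R : Set G) ⊓ centralizer ((IV R : Subgroup G) : Set G)

theorem N1_normal (R : Subgroup G) : normalizer (R : Set G) ≤ normalizer (N1 R : Set G) := by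
  have key : ∀ l ∈ normalizer (R : Set G), ∀ x ∈ N1 R, l * x * l⁻¹ ∈ N1 R := by
    intro l hl x hx
    refine ⟨Subgroup.mul_mem _ (Subgroup.mul_mem _ hl hx.1) (Subgroup.inv_mem _ hl),
      mem_centralizer_iff.2 fun e he => ?_⟩
    have h1 := mem_centralizer_iff.1 hx.2 _ (IV_conj (Subgroup.inv_mem _ hl) he)
    rw [inv_inv] at h1
    calc e * (l * x * l⁻¹) = l * ((l⁻¹ * e * l) * x) * l⁻¹ := by group
      _ = l * (x * (l⁻¹ * e * l)) * l⁻¹ := by rw [h1]
      _ = l * x * l⁻¹ * e := by group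
  intro l hl
  rw [mem_normalizer_iff]
  refine fun x => ⟨key l hl x, fun hx => ?_⟩
  simpa [mul_assoc] using key l⁻¹ (inv_mem hl) _ hx

/-- Elements of odd order centralising `IV R` centralise `R`. -/
theorem faithful (h : Hyp M P) {R : Subgroup G} (hR : Big P R) {g : G}
    (hg : g ∈ normalizer (R : Set G)) (hgo : Nat.Coprime (orderOf g) 2)
    (hgV : ∀ e ∈ IV R, Commute g e) : g ∈ centralizer (R : Set G) := by
  have hZ : ∀ (k : ℕ) (e : G), e ∈ ZR R → e ^ 2 ^ k = 1 → Commute g e := by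
    intro k
    induction k with
    | zero => intro e _ he; rw [pow_zero, pow_one] at he; rw [he]; exact Commute.one_right g
    | succ k ih =>
      intro e he hek
      have h2 : Commute g (e * e) := ih _ (mul_mem he he) (by
        rw [← pow_two, ← pow_mul, ← pow_succ']; exact hek)
      set c := ⁅g, e⁆ with hc
      have hcZ : c ∈ ZR R := comm_mem_ZR h hR hg he.1
      have hge : g * e * g⁻¹ = c * e := by rw [hc, commutatorElement_def]; group
      have hcc : c * c = 1 := by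
        have h3 : (g * e * g⁻¹) * (g * e * g⁻¹) = e * e := by
          rw [show g * e * g⁻¹ * (g * e * g⁻¹) = g * (e * e) * g⁻¹ by group, h2.eq,
            mul_inv_cancel_right]
        rw [hge, show c * e * (c * e) = c * (e * c) * e by group, ← (ZR_commute hcZ he).eq,
          show c * (c * e) * e = c * c * (e * e) by group] at h3
        exact mul_eq_right.1 h3
      have h4 := dd_orderOf g e
      rw [dd_fixed (hgV c ⟨hcZ, hcc⟩)] at h4
      exact commutatorElement_eq_one_iff_commute.1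
        (eq_one_of_pow_odd (hR.1 hcZ.1) hgo h4)
  refine mem_centralizer_iff.2 fun x hx => ?_
  have hcZ : ⁅g, x⁆ ∈ ZR R := comm_mem_ZR h hR hg hx
  obtain ⟨k, hk⟩ := P.2 ⟨⁅g, x⁆, hR.1 hcZ.1⟩
  have h4 := dd_orderOf g x
  rw [dd_fixed (hZ k _ hcZ (by simpa using congrArg Subtype.val hk))] at h4
  exact (commutatorElement_eq_one_iff_commute.1 (eq_one_of_pow_odd (hR.1 hcZ.1) hgo h4)).eq.symm

theorem conj_pow_mod {N : Subgroup G} {g n : G} (hg : g ∈ normalizer (N : Set G)) (hn : n ∈ N)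
    (m : ℕ) : ∃ n' ∈ N, (n * g) ^ m = n' * g ^ m := by
  induction m with
  | zero => exact ⟨1, one_mem _, by simp⟩
  | succ m ih =>
    obtain ⟨n', hn', he⟩ := ih
    refine ⟨n' * (g ^ m * n * (g ^ m)⁻¹), mul_mem hn' (conj_mem (pow_mem hg m) hn), ?_⟩
    rw [pow_succ, he, pow_succ]
    group

/-- A big subgroup, maximal for having an automorphism of odd order. -/
structure Crit (P : Sylow 2 G) (R : Subgroup G) : Prop where
  big : Big P R
  good : ∀ S : Subgroup G, R < S → S ≤ (P : Subgroup G) → Good S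
  bad : ∃ g ∈ normalizer (R : Set G), Nat.Coprime (orderOf g) 2 ∧ g ∉ centralizer (R : Set G)

theorem Crit.step {R : Subgroup G} (hc : Crit P R) (S : Subgroup G) (hRS : R < S)
    (hSP : S ≤ (P : Subgroup G)) {k : G} (hk : k ∈ normalizer (S : Set G)) :
    ∃ a : ℕ, k ^ 2 ^ a ∈ centralizer ((IV R : Subgroup G) : Set G) := by
  obtain ⟨a, ha⟩ := exists_pow_odd k
  exact ⟨a, centralizer_le ((IV_le R).trans hRS.le) (hc.good S hRS hSP _ (pow_mem hk _) ha)⟩

theorem Crit.mem_of_commute {R : Subgroup G} (hc : Crit P R) (h : Hyp M P) {p : G}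
    (hp : p ∈ (P : Subgroup G)) (hpV : ∀ e ∈ IV R, Commute p e) : p ∈ R := by
  have hR := hc.big
  obtain ⟨g₀, hg₀, hg₀o, hg₀C⟩ := hc.bad
  by_contra hpR
  set R2 := (P : Subgroup G) ⊓ N1 R with hR2def
  have hRle : R ≤ R2 := le_inf hR.1 (le_inf le_normalizer fun x hx =>
    mem_centralizer_iff.2 fun e he => ((mem_ZR.1 he.1).2 x hx).eq.symm)
  have hlt : R < R2 := lt_of_le_of_ne hRle fun he => hpR (he ▸
    ⟨hp, (big_le_normalizer h hR) (h.le hp), mem_centralizer_iff.2 fun e he' => (hpV e he').eq.symm⟩)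
  refine hg₀C (faithful h hR hg₀ hg₀o fun e he => ?_)
  obtain ⟨n, hn, hk⟩ := exists_frattini (P := P) ((h.le.trans (big_le_normalizer h hR)).trans (N1_normal R)) (N1_normal R hg₀)
  obtain ⟨a, ha⟩ := hc.step R2 hlt inf_le_left hk
  obtain ⟨n', hn', he'⟩ := conj_pow_mod (N1_normal R hg₀) hn (2 ^ a)
  have h5 : g₀ ^ 2 ^ a ∈ centralizer ((IV R : Subgroup G) : Set G) := by
    have : g₀ ^ 2 ^ a = n'⁻¹ * (n * g₀) ^ 2 ^ a := by rw [he']; group
    rw [this]
    exact mul_mem (inv_mem hn'.2) ha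
  exact (mem_centralizer_iff.1 (mem_of_pow_two_pow hg₀o h5) e he).symm

theorem Crit.sq_mem {R : Subgroup G} (hc : Crit P R) (h : Hyp M P) {p : G}
    (hp : p ∈ (P : Subgroup G)) : p * p ∈ R := by
  have hR := hc.big
  refine hc.mem_of_commute h (mul_mem hp hp) fun e he => ?_
  have heP : e ∈ (P : Subgroup G) := hR.1 (IV_le R he)
  set c := ⁅p, e⁆ with hcdef
  have hcV : c ∈ IV R := by
    rw [hcdef, commutatorElement_def]
    exact mul_mem (IV_conj ((big_le_normalizer h hR) (h.le hp)) he) (inv_mem he)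
  have hpe : p * e = c * e * p := by rw [hcdef, commutatorElement_def]; group
  have hcp : Commute p c := h.cls p hp e heP p hp
  show p * p * e = e * (p * p)
  calc p * p * e = p * (p * e) := mul_assoc _ _ _
    _ = (p * c) * e * p := by rw [hpe]; group
    _ = c * (p * e) * p := by rw [hcp.eq]; group
    _ = (c * c) * e * (p * p) := by rw [hpe]; group
    _ = e * (p * p) := by rw [hcV.2, one_mul]

/-- The action of the normalizer on `IV R`. -/
def rho (R : Subgroup G) : normalizer (R : Set G) →* MulAut (IV R) :=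
  (Subgroup.normalizerMonoidHom (IV R)).comp (inclusion (IV_normal R))

/-- The image of the action. -/
def rr (R : Subgroup G) : normalizer (R : Set G) →* (rho R).range := (rho R).rangeRestrict

theorem rr_surjective (R : Subgroup G) : Function.Surjective (rr R) :=
  (rho R).rangeRestrict_surjective

theorem rr_eq_one_iff {R : Subgroup G} (l : normalizer (R : Set G)) :
    rr R l = 1 ↔ (l : G) ∈ centralizer ((IV R : Subgroup G) : Set G) := by
  rw [mem_centralizer_iff]
  constructor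
  · intro hl v hv
    have := congrArg (fun z : (rho R).range => (((z : MulAut (IV R)) ⟨v, hv⟩ : IV R) : G)) hl
    change (l : G) * v * (l : G)⁻¹ = v at this
    exact (mul_inv_eq_iff_eq_mul.1 this).symm
  · intro hl
    refine Subtype.ext (MulEquiv.ext fun v => Subtype.ext ?_)
    show (l : G) * v * (l : G)⁻¹ = v
    rw [← hl v v.2, mul_inv_cancel_right]

theorem Crit.local_trivial {R : Subgroup G} (hc : Crit P R) (S : Subgroup G) (hRS : R < S)
    (hSP : S ≤ (P : Subgroup G)) (k : normalizer (R : Set G))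
    (hk : (k : G) ∈ normalizer (S : Set G)) (hko : Nat.Coprime (orderOf (rr R k)) 2) :
    rr R k = 1 := by
  obtain ⟨a, ha⟩ := hc.step S hRS hSP hk
  have h1 : rr R k ^ 2 ^ a = 1 := by
    rw [← map_pow, rr_eq_one_iff]
    exact ha
  exact orderOf_eq_one_iff.1
    (Nat.Coprime.eq_one_of_dvd (hko.pow_right a) (orderOf_dvd_of_pow_eq_one h1))

theorem Crit.lift {R : Subgroup G} (hc : Crit P R) (h : Hyp M P) (W : Subgroup G) (hRW : R < W)
    (hWP : W ≤ (P : Subgroup G)) (l : normalizer (R : Set G))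
    (hl : ∀ x : normalizer (R : Set G), (x : G) ∈ W → ∃ y : normalizer (R : Set G), (y : G) ∈ W ∧
      rr R (l * x * l⁻¹) = rr R y)
    (hl' : ∀ x : normalizer (R : Set G), (x : G) ∈ W → ∃ y : normalizer (R : Set G), (y : G) ∈ W ∧
      rr R (l⁻¹ * x * l) = rr R y) :
    ∃ (S : Subgroup G) (k : normalizer (R : Set G)), R < S ∧ S ≤ (P : Subgroup G) ∧
      (k : G) ∈ normalizer (S : Set G) ∧ rr R k = rr R l := by
  have hR := hc.big
  set N := W ⊔ N1 R with hN
  have hWn : (P : Subgroup G) ≤ normalizer (W : Set G) := by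
    intro q hq
    have key : ∀ q ∈ (P : Subgroup G), ∀ x ∈ W, q * x * q⁻¹ ∈ W := by
      intro q hq x hx
      have := mul_mem (hRW.le (hR.2 q hq x (hWP hx))) hx
      rwa [commutatorElement_def, inv_mul_cancel_right] at this
    rw [mem_normalizer_iff]
    refine fun x => ⟨key q hq x, fun hx => ?_⟩
    simpa [mul_assoc] using key q⁻¹ (inv_mem hq) _ hx
  have hPN : (P : Subgroup G) ≤ normalizer (N : Set G) := fun q hq =>
    mem_normalizer_sup (hWn hq) ((N1_normal R) ((big_le_normalizer h hR) (h.le hq)))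
  have hWL : W ≤ normalizer (R : Set G) := hWP.trans (h.le.trans (big_le_normalizer h hR))
  have hone : ∀ m : normalizer (R : Set G), (∀ x : normalizer (R : Set G), (x : G) ∈ W → ∃ y : normalizer (R : Set G), (y : G) ∈ W ∧
      rr R (m * x * m⁻¹) = rr R y) → ∀ x ∈ N, (m : G) * x * (m : G)⁻¹ ∈ N := by
    intro m hm x hx
    have : N ≤ N.comap (MulAut.conj (m : G)).toMonoidHom := by
      refine sup_le (fun w hw => ?_) fun w hw => mem_sup_right (conj_mem ((N1_normal R) m.2) hw)
      obtain ⟨y, hy, hye⟩ := hm ⟨w, hWL hw⟩ hw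
      have h1 : rr R (y⁻¹ * (m * ⟨w, hWL hw⟩ * m⁻¹)) = 1 := by
        rw [map_mul, hye, map_inv, inv_mul_cancel]
      have h2a : ((y⁻¹ * (m * ⟨w, hWL hw⟩ * m⁻¹) : normalizer (R : Set G)) : G) ∈ N1 R :=
        Subgroup.mem_inf.2 ⟨Subtype.prop _, (rr_eq_one_iff _).1 h1⟩
      have h2 : (y : G) * ((y⁻¹ * (m * ⟨w, hWL hw⟩ * m⁻¹) : normalizer (R : Set G)) : G) ∈ N :=
        Subgroup.mul_mem _ (mem_sup_left hy) (mem_sup_right h2a)
      rw [mem_comap]
      simpa [mul_assoc] using h2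
    exact this hx
  have hlN : (l : G) ∈ normalizer (N : Set G) := by
    rw [mem_normalizer_iff]
    refine fun x => ⟨hone l hl x, fun hx => ?_⟩
    have := hone l⁻¹ (fun x hx => by simpa using hl' x hx) _ hx
    simpa [mul_assoc] using this
  obtain ⟨nn, hnn, hk⟩ := exists_frattini (P := P) hPN hlN
  have hnn' : nn ∈ (↑(W ⊔ N1 R) : Set G) := hnn
  rw [coe_mul_of_left_le_normalizer_right W (N1 R) (hWL.trans (N1_normal R))] at hnn'
  obtain ⟨w, hw, m, hm, rfl⟩ := hnn'
  set S := (P : Subgroup G) ⊓ N with hS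
  have hWS : W ≤ S := le_inf hWP le_sup_left
  have hwS : w⁻¹ ∈ normalizer (S : Set G) := le_normalizer (hWS (Subgroup.inv_mem _ hw))
  have hk' : m * (l : G) ∈ normalizer (S : Set G) := by
    have h6 := Subgroup.mul_mem _ hwS hk
    rwa [show w⁻¹ * (w * m * (l : G)) = m * (l : G) by group] at h6
  have hmN1 : m ∈ N1 R := hm
  refine ⟨S, ⟨m, hmN1.1⟩ * l, hRW.trans_le hWS, inf_le_left, hk', ?_⟩
  rw [map_mul, (rr_eq_one_iff ⟨m, hmN1.1⟩).2 hmN1.2, one_mul]

/-- The image of `P`. -/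
def Tsub (P : Sylow 2 G) (R : Subgroup G) : Subgroup (rho R).range :=
  ((P : Subgroup G).subgroupOf (normalizer (R : Set G))).map (rr R)

theorem Tsub_mem {R : Subgroup G} {x : normalizer (R : Set G)} (hx : (x : G) ∈ (P : Subgroup G)) :
    rr R x ∈ Tsub P R :=
  Subgroup.mem_map_of_mem (rr R) (mem_subgroupOf.2 hx)

theorem Tsub_isPGroup (R : Subgroup G) : IsPGroup 2 (Tsub P R) :=
  (P.2.comap_subtype).map _

theorem Tsub_index {R : Subgroup G} (hPL : (P : Subgroup G) ≤ normalizer (R : Set G)) :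
    ¬ 2 ∣ (Tsub P R).index := by
  intro hd
  have h1 := hd.trans (index_map_dvd _ (rr_surjective R))
  exact P.not_dvd_index (h1.trans (by
    rw [← relIndex]
    exact relIndex_dvd_index_of_le hPL))

theorem Tsub_comm {R : Subgroup G} (hR : Big P R) : IsMulCommutative (Tsub P R) := by
  refine ⟨⟨?_⟩⟩
  rintro ⟨_, x, hx, rfl⟩ ⟨_, y, hy, rfl⟩
  refine Subtype.ext ?_
  show rr R x * rr R y = rr R y * rr R x
  rw [← commutatorElement_eq_one_iff_mul_comm, ← map_commutatorElement, rr_eq_one_iff]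
  refine mem_centralizer_iff.2 fun v hv => ?_
  exact ((mem_ZR.1 hv.1).2 _ (hR.2 x hx y hy)).eq.symm

theorem Crit.burnside {R : Subgroup G} (hc : Crit P R) (h : Hyp M P) (hlt : R < (P : Subgroup G)) :
    ∃ K : Subgroup (rho R).range, K.Normal ∧ Nat.Coprime (Nat.card K) 2 ∧
      K.IsComplement' (Tsub P R) := by
  have hR := hc.big
  have hodd := Tsub_index (P := P) ((h.le.trans (big_le_normalizer h hR)))
  have hcomm := Tsub_comm hR
  let S0 : Sylow 2 (rho R).range := (Tsub_isPGroup (P := P) R).toSylow hodd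
  have hburn : normalizer ((S0 : Subgroup (rho R).range) : Set (rho R).range) ≤
      centralizer ((S0 : Subgroup (rho R).range) : Set (rho R).range) := by
    intro x hx
    obtain ⟨l, rfl⟩ := rr_surjective R x
    obtain ⟨S, k, hRS, hSP, hkS, hkl⟩ := hc.lift h (P : Subgroup G) hlt le_rfl l
      (fun y hy => by
        obtain ⟨z, hz, hze⟩ := (mem_normalizer_iff.1 hx (rr R y)).1 (Tsub_mem hy)
        exact ⟨z, hz, by rw [map_mul, map_mul, map_inv, hze]⟩)
      (fun y hy => by
        obtain ⟨z, hz, hze⟩ := (mem_normalizer_iff.1 (inv_mem hx) (rr R y)).1 (Tsub_mem hy)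
        exact ⟨z, hz, by rw [map_mul, map_mul, map_inv, hze, inv_inv]⟩)
    rw [← hkl] at hx ⊢
    obtain ⟨j, hj⟩ := exists_pow_odd (rr R k)
    have hkj : ((k ^ 2 ^ j : normalizer (R : Set G)) : G) ∈ normalizer (S : Set G) := by
      rw [Subgroup.coe_pow]
      exact pow_mem hkS _
    have h1 : rr R k ^ 2 ^ j = 1 := by
      rw [← map_pow]
      exact hc.local_trivial S hRS hSP _ hkj (by rw [map_pow]; exact hj)
    have hxp : IsPGroup 2 (zpowers (rr R k)) := by
      rintro ⟨y, hy⟩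
      obtain ⟨i, rfl⟩ := mem_zpowers_iff.1 hy
      refine ⟨j, Subtype.ext ?_⟩
      show (rr R k ^ i) ^ (2 ^ j) = 1
      rw [← zpow_natCast, ← zpow_mul, mul_comm, zpow_mul, zpow_natCast, h1, one_zpow]
    have hsup := hxp.to_sup_of_normal_right' S0.2 (zpowers_le.2 hx)
    have hle : rr R k ∈ (S0 : Subgroup (rho R).range) := by
      have := S0.3 hsup le_sup_right
      exact this ▸ mem_sup_left (mem_zpowers _)
    rw [mem_centralizer_iff]
    intro y hy
    exact congrArg Subtype.val (hcomm.is_comm.comm ⟨y, hy⟩ ⟨_, hle⟩)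
  obtain ⟨K, hKn, hKc⟩ := (Transfer.hasNormalPComplement_iff_exists S0).1
    (Transfer.hasNormalPComplement_of_normalizer_le_centralizer S0 hburn)
  refine ⟨K, hKn, ?_, hKc⟩
  have hidx : (Tsub P R).index = Nat.card K := hKc.index_eq_card
  rw [← hidx]
  exact Nat.coprime_comm.1 (Nat.prime_two.coprime_iff_not_dvd.2 hodd)

theorem Crit.Tsub_sq {R : Subgroup G} (hc : Crit P R) (h : Hyp M P) {z : (rho R).range}
    (hz : z ∈ Tsub P R) : z * z = 1 := by
  obtain ⟨x, hx, rfl⟩ := hz
  rw [← map_mul, rr_eq_one_iff]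
  refine mem_centralizer_iff.2 fun v hv => ?_
  exact ((mem_ZR.1 hv.1).2 _ (hc.sq_mem h hx)).eq.symm

theorem Crit.cent {R : Subgroup G} (hc : Crit P R) (h : Hyp M P) (K : Subgroup (rho R).range)
    (hKodd : Nat.Coprime (Nat.card K) 2) (z : (rho R).range) (hz : z ∈ Tsub P R) (hx1 : z ≠ 1) :
    K ⊓ centralizer {z} = ⊥ := by
  have hR := hc.big
  obtain ⟨x, hx, rfl⟩ := hz
  rw [eq_bot_iff]
  rintro y ⟨hyK, hyC⟩
  rw [mem_bot]
  obtain ⟨l, rfl⟩ := rr_surjective R y
  have hxR : (x : G) ∉ R := fun hh => hx1 ((rr_eq_one_iff x).2 (mem_centralizer_iff.2 fun v hv =>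
    ((mem_ZR.1 hv.1).2 _ hh).eq.symm))
  set W := R ⊔ zpowers (x : G) with hW
  have hWP : W ≤ (P : Subgroup G) := sup_le hR.1 (zpowers_le.2 hx)
  have hRW : R < W := lt_of_le_of_ne le_sup_left fun hh =>
    hxR (le_of_eq hh.symm (mem_sup_right (mem_zpowers _)))
  replace hyC := mem_centralizer_singleton_iff.1 (show rr R l ∈ centralizer {rr R x} from hyC)
  have hWim : ∀ m : normalizer (R : Set G), (m : G) ∈ W → Commute ((rr R) l) ((rr R) m) := by
    intro m hm
    have hle : W ≤ ((centralizer {(rr R) l}).comap (rr R)).map (normalizer (R : Set G)).subtype := by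
      refine sup_le (fun r hr => ⟨⟨r, le_normalizer hr⟩, ?_, rfl⟩) (zpowers_le.2 ⟨x, ?_, rfl⟩)
      · rw [SetLike.mem_coe, mem_comap, (rr_eq_one_iff (⟨r, le_normalizer hr⟩ : normalizer (R : Set G))).2 (mem_centralizer_iff.2 fun v hv =>
          ((mem_ZR.1 hv.1).2 _ hr).eq.symm)]
        exact one_mem _
      · rw [SetLike.mem_coe, mem_comap, mem_centralizer_singleton_iff]
        exact hyC.symm
    obtain ⟨m', hm', hmm⟩ := hle hm
    rw [SetLike.mem_coe, mem_comap, mem_centralizer_singleton_iff] at hm'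
    have : m' = m := Subtype.ext hmm
    exact this ▸ (show Commute _ _ from hm'.symm)
  obtain ⟨k, kk, hk2, hk3, hk4, hk5⟩ := hc.lift h W hRW hWP l
    (fun y hy => ⟨y, hy, by rw [map_mul, map_mul, map_inv, (hWim y hy).eq, mul_inv_cancel_right]⟩)
    (fun y hy => ⟨y, hy, by rw [map_mul, map_mul, map_inv, mul_assoc, ← (hWim y hy).eq, inv_mul_cancel_left]⟩)
  rw [← hk5]
  refine hc.local_trivial k hk2 hk3 kk hk4 ?_
  rw [hk5]
  exact hKodd.coprime_dvd_left (orderOf_dvd_natCard K hyK)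

/-- A critical subgroup has index two. -/
theorem Crit.toBad {R : Subgroup G} (hc : Crit P R) (h : Hyp M P) : Bad P R := by
  refine ⟨hc.big, ?_, hc.bad⟩
  intro a ha b hb haR hbR
  by_contra habR
  have hR := hc.big
  obtain ⟨g₀, hg₀, hg₀o, hg₀C⟩ := hc.bad
  obtain ⟨K, hKn, hKodd, hKc⟩ := hc.burnside h (lt_of_le_of_ne hR.1 fun he => haR (he ▸ ha))
  refine hg₀C (faithful h hR hg₀ hg₀o fun e he => ?_)
  -- `T` is not cyclic
  have hTnc : ¬ IsCyclic (Tsub P R) := by
    intro hcyc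
    obtain ⟨t, ht⟩ := hcyc.exists_generator
    have hmem : ∀ z : G, ∀ hz : z ∈ (P : Subgroup G),
        (rr R) ⟨z, (big_le_normalizer h hR) (h.le hz)⟩ = 1 ∨ (rr R) ⟨z, (big_le_normalizer h hR) (h.le hz)⟩ = t := by
      intro z hz
      obtain ⟨i, hi⟩ := mem_zpowers_iff.1 (ht ⟨_, Tsub_mem (R := R) (x := ⟨z, (big_le_normalizer h hR) (h.le hz)⟩) hz⟩)
      have hi' : (t : (rho R).range) ^ i = (rr R) ⟨z, (big_le_normalizer h hR) (h.le hz)⟩ := congrArg Subtype.val hi
      rcases Int.even_or_odd' i with ⟨j, rfl | rfl⟩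
      · left
        rw [← hi', zpow_mul, zpow_two, hc.Tsub_sq h t.2, one_zpow]
      · right
        rw [← hi', zpow_add, zpow_mul, zpow_two, hc.Tsub_sq h t.2, one_zpow, one_mul, zpow_one]
    have hone : ∀ z : G, ∀ hz : z ∈ (P : Subgroup G), z ∉ R →
        (rr R) ⟨z, (big_le_normalizer h hR) (h.le hz)⟩ = t := fun z hz hzR =>
      (hmem z hz).resolve_left fun hh => hzR (hc.mem_of_commute h hz fun v hv =>
        (mem_centralizer_iff.1 ((rr_eq_one_iff _).1 hh) v hv).symm)
    refine habR (hc.mem_of_commute h (mul_mem ha hb) fun v hv => ?_)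
    have hh : (rr R) ⟨a * b, (big_le_normalizer h hR) (h.le (mul_mem ha hb))⟩ = 1 := by
      rw [show (⟨a * b, (big_le_normalizer h hR) (h.le (mul_mem ha hb))⟩ : normalizer (R : Set G)) =
        ⟨a, (big_le_normalizer h hR) (h.le ha)⟩ * ⟨b, (big_le_normalizer h hR) (h.le hb)⟩ from rfl, map_mul, hone a ha haR, hone b hb hbR,
        hc.Tsub_sq h t.2]
    exact (mem_centralizer_iff.1 ((rr_eq_one_iff _).1 hh) v hv).symm
  haveI := Tsub_comm (P := P) hR
  have hKbot : K = ⊥ := by
    rw [← Coprime.iSup_centralizer_eq (K := K) hTnc (le_top.trans (normalizer_eq_top_iff.2 hKn).ge)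
      (by
        obtain ⟨j, hj⟩ := IsPGroup.iff_card.1 (Tsub_isPGroup (P := P) R)
        rw [hj]
        exact (hKodd.symm).pow_left j)]
    exact le_bot_iff.1 (iSup₂_le fun z hz => (hc.cent h K hKodd z hz.1 hz.2).le)
  have hTtop : Tsub P R = ⊤ := by
    have := hKc.sup_eq_top
    rwa [hKbot, bot_sup_eq] at this
  have hg1 : (rr R) ⟨g₀, hg₀⟩ = 1 := by
    have hm : (rr R) ⟨g₀, hg₀⟩ ∈ Tsub P R := hTtop ▸ mem_top _
    have h1 := hc.Tsub_sq h hm
    refine orderOf_eq_one_iff.1 (Nat.Coprime.eq_one_of_dvd (m := 2) ?_ (orderOf_dvd_of_pow_eq_one (by rw [pow_two]; exact h1)))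
    exact (hg₀o.coprime_dvd_left ((orderOf_map_dvd _ _).trans (orderOf_mk g₀ hg₀).dvd))
  exact (mem_centralizer_iff.1 ((rr_eq_one_iff _).1 hg1) e he).symm

/-- A big subgroup with an odd automorphism yields a subgroup of index two. -/
theorem exists_bad (h : Hyp M P) {R₀ : Subgroup G} (hR₀ : Big P R₀) (hnot : ¬ Good R₀) :
    ∃ Q, Bad P Q := by
  obtain ⟨R, -, hmax⟩ := Finite.exists_le_maximal (p := fun R : Subgroup G => Big P R ∧ ¬ Good R)
    (show Big P R₀ ∧ ¬ Good R₀ from ⟨hR₀, hnot⟩)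
  obtain ⟨hR, hbad⟩ := hmax.prop
  refine ⟨R, Crit.toBad ⟨hR, fun S hRS hSP => ?_, ?_⟩ h⟩
  · by_contra hS
    exact hmax.not_prop_of_gt hRS ⟨⟨hSP, fun x hx y hy => hRS.le (hR.2 x hx y hy)⟩, hS⟩
  · simpa [Good] using hbad

end Cfsg.Agent.NilMax.Parity
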